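import Cfsg.Agent.SympWeil.SymOrbit

/-!
A congruence orbit of symmetric matrices of rank at least two, `q` odd, has at least
`(q^n - 1)(q^n - q) / (2(q + 1))` elements.
-/

set_option autoImplicit false

namespace CfsgLib.SpWeilChars

open Matrix CfsgLib.SympWeil

variable {F : Type*} [Field F]

/-- The matrix `[[1, 0], [u, G]]`. -/
def loMat {m : ℕ} (u : Fin m → F) (G : Matrix (Fin m) (Fin m) F) : Matrix (Fin (m + 1)) (Fin (m + 1)) F :=
  Matrix.of (Fin.cons (Fin.cons 1 0) fun i => Fin.cons (u i) (G i))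

theorem det_loMat {m : ℕ} (u : Fin m → F) (G : Matrix (Fin m) (Fin m) F) : (loMat u G).det = G.det := by
  rw [Matrix.det_succ_row_zero, Finset.sum_eq_single 0]
  · have : (loMat u G).submatrix Fin.succ (Fin.succAbove 0) = G := by
      ext i j; simp [loMat]
    rw [this]; simp [loMat]
  · intro j _ hj
    obtain ⟨j, rfl⟩ := Fin.exists_succ_eq.2 hj
    simp [loMat]
  · simp

theorem loMat_congr {m : ℕ} (u : Fin m → F) (G : Matrix (Fin m) (Fin m) F)
    (N : Matrix (Fin (m + 1)) (Fin (m + 1)) F) (h0 : ∀ i : Fin m, N i.succ 0 = 0)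
    (h0' : ∀ i : Fin m, N 0 i.succ = 0) :
    (loMat u G * N * (loMat u G)ᵀ) 0 0 = N 0 0 ∧
    (∀ i : Fin m, (loMat u G * N * (loMat u G)ᵀ) i.succ 0 = u i * N 0 0) ∧
    ∀ i k : Fin m, (loMat u G * N * (loMat u G)ᵀ) i.succ k.succ =
      u i * N 0 0 * u k + (G * N.submatrix Fin.succ Fin.succ * Gᵀ) i k := by
  refine ⟨?_, fun i => ?_, fun i k => ?_⟩ <;>
    simp [congr_apply', loMat, dotProduct, Matrix.mulVec, Fin.sum_univ_succ, h0, h0']
  ring

theorem exists_sum_sq [Fintype F] (h2 : (2 : F) ≠ 0) {a b : F} (ha : a ≠ 0) (hb : b ≠ 0) (c : F) :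
    ∃ s t : F, a * s ^ 2 + b * t ^ 2 = c := by
  obtain ⟨s, t, h⟩ := FiniteField.exists_root_sum_quadratic
    (f := Polynomial.C a * Polynomial.X ^ 2) (g := Polynomial.C b * Polynomial.X ^ 2 - Polynomial.C c)
    (Polynomial.degree_C_mul_X_pow 2 ha)
    (by rw [Polynomial.degree_sub_C, Polynomial.degree_C_mul_X_pow 2 hb]
        · rfl
        · rw [Polynomial.degree_C_mul_X_pow 2 hb]; exact WithBot.coe_lt_coe.2 two_pos)
    (FiniteField.odd_card_of_char_ne_two fun h => h2 (by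
      have : CharP F 2 := h ▸ ringChar.charP F
      exact CharTwo.two_eq_zero))
  exact ⟨s, t, by simp at h; linear_combination h⟩

theorem exists_value_ne_zero (h2 : (2 : F) ≠ 0) {n : ℕ} {W : Matrix (Fin n) (Fin n) F} (hW : Wᵀ = W)
    (hW0 : W ≠ 0) : ∃ x, x ⬝ᵥ (W *ᵥ x) ≠ 0 := by
  by_contra hc
  push Not at hc
  refine hW0 (Matrix.ext fun i j => ?_)
  have h := hc (Pi.single i 1 + Pi.single j 1)
  have hi : W i i = 0 := by simpa using hc (Pi.single i 1)
  have hj : W j j = 0 := by simpa using hc (Pi.single j 1)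
  have hs : W j i = W i j := congrFun (congrFun hW i) j
  simp [Matrix.mulVec_add, add_dotProduct, dotProduct_add, hi, hj, hs] at h
  have h' : (2 : F) * W i j = 0 := by linear_combination h
  simpa using (mul_eq_zero.1 h').resolve_left h2

theorem congr_quad {n : ℕ} (A W : Matrix (Fin n) (Fin n) F) (z : Fin n → F) :
    z ⬝ᵥ ((A * W * Aᵀ) *ᵥ z) = (Aᵀ *ᵥ z) ⬝ᵥ (W *ᵥ (Aᵀ *ᵥ z)) := by
  rw [← Matrix.mulVec_mulVec, ← Matrix.mulVec_mulVec, Matrix.dotProduct_mulVec, ← Matrix.mulVec_transpose]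

variable [Fintype F] [DecidableEq F]

/-- The number of representations of `a`. -/
def repCount {n : ℕ} (W : Matrix (Fin n) (Fin n) F) (a : F) : ℕ :=
  (Finset.univ.filter fun z : Fin n → F => z ⬝ᵥ (W *ᵥ z) = a).card

theorem repCount_congr {n : ℕ} {A W : Matrix (Fin n) (Fin n) F} (hA : A.det ≠ 0) (a : F) :
    repCount (A * W * Aᵀ) a = repCount W a := by
  have hu : IsUnit Aᵀ.det := by rw [Matrix.det_transpose]; exact hA.isUnit
  refine Finset.card_nbij' (fun z => Aᵀ *ᵥ z) (fun z => Aᵀ⁻¹ *ᵥ z) ?_ ?_ ?_ ?_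
  · intro z hz
    simp only [Finset.coe_filter, Finset.mem_univ, true_and, Set.mem_ofPred_eq] at hz ⊢
    rwa [← congr_quad]
  · intro z hz
    simp only [Finset.coe_filter, Finset.mem_univ, true_and, Set.mem_ofPred_eq] at hz ⊢
    rwa [congr_quad, Matrix.mulVec_mulVec, Matrix.mul_nonsing_inv _ hu, Matrix.one_mulVec]
  · intro z _; simp [Matrix.mulVec_mulVec, Matrix.nonsing_inv_mul _ hu]
  · intro z _; simp [Matrix.mulVec_mulVec, Matrix.mul_nonsing_inv _ hu]

/-- The orbit bound in rank at least two. -/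
theorem card_congrOrbit_of_not_rank_one (h2 : (2 : F) ≠ 0) {n : ℕ} (W : Matrix (Fin n) (Fin n) F)
    (hW : Wᵀ = W) (hr : ∀ (ε : F) (x : Fin n → F), W ≠ ε • Matrix.vecMulVec x x) :
    (Fintype.card F ^ n - 1) * (Fintype.card F ^ n - Fintype.card F) ≤
      2 * (Fintype.card F + 1) * (congrOrbit W).card := by
  classical
  rcases n with _ | m
  · exact absurd (Subsingleton.elim W _) (hr 0 0)
  set q := Fintype.card F with hq
  have hq2 : 2 ≤ q := Fintype.one_lt_card
  set O := congrOrbit W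
  have hW0 : W ≠ 0 := fun h => hr 0 0 (by simp [h])
  have hsplit : ∀ c : F, c ≠ 0 → (∃ x, x ⬝ᵥ (W *ᵥ x) = c) → ∃ N ∈ O, N 0 0 = c ∧
      (∀ i : Fin m, N i.succ 0 = 0) ∧ (∀ i : Fin m, N 0 i.succ = 0) ∧
      (N.submatrix Fin.succ Fin.succ)ᵀ = N.submatrix Fin.succ Fin.succ ∧
      N.submatrix Fin.succ Fin.succ ≠ 0 := by
    rintro c hc ⟨x, hx⟩
    have hx0 : x ≠ 0 := by rintro rfl; exact hc (by simpa using hx.symm)
    obtain ⟨A, hA, hAx⟩ := exists_det_row hx0
    have hM : A * W * Aᵀ ∈ O := mem_congrOrbit.2 ⟨A, hA, rfl⟩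
    set M := A * W * Aᵀ
    have hM00 : M 0 0 = c := by simp only [M]; rw [congr_apply', hAx, hx]
    have hMs := transpose_of_mem_congrOrbit hW hM
    let u : Fin m → F := fun i => -(M i.succ 0) / c
    set N := loMat u 1 * M * (loMat u 1)ᵀ
    have hNO : N ∈ O := congrOrbit_trans hM _ (by simp [det_loMat])
    have hNs := transpose_of_mem_congrOrbit hW hNO
    have hN00 : N 0 0 = c := by
      simp [N, congr_apply', loMat, dotProduct, Matrix.mulVec, Fin.sum_univ_succ, hM00]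
    have hcol : ∀ i : Fin m, N i.succ 0 = 0 := by
      intro i
      simp [N, congr_apply', loMat, dotProduct, Matrix.mulVec, Fin.sum_univ_succ, hM00, u,
        Matrix.one_apply]
      field_simp
      ring
    have hrow : ∀ i : Fin m, N 0 i.succ = 0 := fun i => by rw [← hcol i]; exact congrFun (congrFun hNs i.succ) 0
    refine ⟨N, hNO, hN00, hcol, hrow, by rw [Matrix.transpose_submatrix, hNs], fun h0 => ?_⟩
    obtain ⟨B, hB, hBN⟩ := mem_congrOrbit.1 hNO
    have hu : IsUnit B.det := hB.isUnit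
    have hu' : IsUnit Bᵀ.det := by rw [Matrix.det_transpose]; exact hu
    refine hr c (B⁻¹ *ᵥ Pi.single 0 1) ?_
    have hN : N = c • Matrix.vecMulVec (Pi.single 0 1) (Pi.single 0 1) := by
      ext i k
      refine Fin.cases ?_ (fun i => ?_) i <;> refine Fin.cases ?_ (fun k => ?_) k
      · simp [hN00, Matrix.vecMulVec_apply]
      · simp [hrow k, Matrix.vecMulVec_apply]
      · simp [hcol i, Matrix.vecMulVec_apply]
      · have := congrFun (congrFun h0 i) k
        simp only [Matrix.submatrix_apply, Matrix.zero_apply] at this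
        simp [this, Matrix.vecMulVec_apply]
    calc W = B⁻¹ * (B * W * Bᵀ) * Bᵀ⁻¹ := by
          simp only [← Matrix.mul_assoc, Matrix.nonsing_inv_mul _ hu, Matrix.one_mul]
          rw [Matrix.mul_assoc, Matrix.mul_nonsing_inv _ hu', Matrix.mul_one]
      _ = c • Matrix.vecMulVec (B⁻¹ *ᵥ Pi.single 0 1) (B⁻¹ *ᵥ Pi.single 0 1) := by
          rw [hBN, hN]
          simp [Matrix.mul_vecMulVec, Matrix.vecMulVec_mul, Matrix.vecMul_transpose,
            ← Matrix.transpose_nonsing_inv]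
  obtain ⟨x₀, hx₀⟩ := exists_value_ne_zero h2 hW hW0
  obtain ⟨N₀, hN₀O, hN₀00, hc₀, hr₀, hs₀, hne₀⟩ := hsplit _ hx₀ ⟨x₀, rfl⟩
  obtain ⟨A₀, hA₀, hA₀N⟩ := mem_congrOrbit.1 hN₀O
  set W₀ := N₀.submatrix Fin.succ Fin.succ
  obtain ⟨f, hf⟩ := exists_value_ne_zero h2 hs₀ hne₀
  set a₀ := x₀ ⬝ᵥ (W *ᵥ x₀)
  have hquad : ∀ (z0 : F) (z : Fin m → F),
      (Fin.cons z0 z : Fin (m + 1) → F) ⬝ᵥ (N₀ *ᵥ Fin.cons z0 z) = a₀ * z0 ^ 2 + z ⬝ᵥ (W₀ *ᵥ z) := by
    intro z0 z
    simp [dotProduct, Matrix.mulVec, Fin.sum_univ_succ, hc₀, hr₀, hN₀00, W₀]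
    ring
  have hall : ∀ (h : Fin m → F) (c : F), ∃ z0 t : F, a₀ * z0 ^ 2 + (h + t • f) ⬝ᵥ (W₀ *ᵥ (h + t • f)) = c := by
    intro h c
    set b := f ⬝ᵥ (W₀ *ᵥ f)
    set β := h ⬝ᵥ (W₀ *ᵥ f)
    have hsym : f ⬝ᵥ (W₀ *ᵥ h) = β := by
      rw [Matrix.dotProduct_mulVec, ← Matrix.mulVec_transpose, hs₀, dotProduct_comm]
    obtain ⟨s, t, hst⟩ := exists_sum_sq h2 hx₀ hf (c - h ⬝ᵥ (W₀ *ᵥ h) + β ^ 2 / b)
    refine ⟨s, t - β / b, ?_⟩
    simp only [Matrix.mulVec_add, Matrix.mulVec_smul, dotProduct_add, add_dotProduct, dotProduct_smul,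
      smul_dotProduct, smul_eq_mul, hsym]
    change a₀ * s ^ 2 + (h ⬝ᵥ (W₀ *ᵥ h) + (t - β / b) * β + (t - β / b) * (β + (t - β / b) * b)) = c
    have hb : b ≠ 0 := hf
    field_simp at hst ⊢
    linear_combination hst
  -- every nonzero value is represented
  have hrep : ∀ c : F, c ≠ 0 → ∃ x, x ⬝ᵥ (W *ᵥ x) = c := by
    intro c _
    obtain ⟨z0, t, ht⟩ := hall 0 c
    exact ⟨A₀ᵀ *ᵥ Fin.cons z0 (0 + t • f), by rw [← congr_quad, hA₀N, hquad, ht]⟩
  -- many zeros
  have hzero : q ^ m ≤ q * repCount W 0 := by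
    rw [← repCount_congr hA₀, hA₀N]
    choose z0 t ht using fun h => hall h (0 : F)
    have h1 : (Finset.univ : Finset (Fin m → F)).card ≤
        q * ((Finset.univ : Finset (Fin m → F)).image fun h => (Fin.cons (z0 h) (h + t h • f) : Fin (m + 1) → F)).card := by
      refine Finset.card_le_mul_card_image _ q fun b hb => ?_
      obtain ⟨h, -, rfl⟩ := Finset.mem_image.1 hb
      refine (Finset.card_le_card (t := (Finset.univ : Finset F).image fun s => h + s • f) fun h' hh' => ?_).trans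
        (Finset.card_image_le.trans (by rw [Finset.card_univ]))
      have he := congrArg Fin.tail (Finset.mem_filter.1 hh').2
      simp only [Fin.tail_cons] at he
      refine Finset.mem_image.2 ⟨t h - t h', Finset.mem_univ _, ?_⟩
      rw [sub_smul, ← add_sub_assoc, ← he]; abel
    rw [Finset.card_univ, Fintype.card_fun, Fintype.card_fin, ← hq] at h1
    refine h1.trans (Nat.mul_le_mul_left _ (Finset.card_le_card fun z hz => ?_))
    obtain ⟨h, -, rfl⟩ := Finset.mem_image.1 hz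
    exact Finset.mem_filter.2 ⟨Finset.mem_univ _, by rw [hquad, ht]⟩
  -- a value with few representations
  obtain ⟨a, ha, hmin⟩ := Finset.exists_min_image (Finset.univ.erase (0 : F)) (repCount W)
    ⟨1, Finset.mem_erase.2 ⟨one_ne_zero, Finset.mem_univ _⟩⟩
  have ha0 := Finset.ne_of_mem_erase ha
  have htot : ∑ c : F, repCount W c = q ^ (m + 1) := by
    simp only [repCount]
    rw [← Finset.card_eq_sum_card_fiberwise (f := fun z : Fin (m + 1) → F => z ⬝ᵥ (W *ᵥ z)) (by simp),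
      Finset.card_univ, Fintype.card_fun, Fintype.card_fin]
  have hVa : (q - 1) * repCount W a + repCount W 0 ≤ q ^ (m + 1) := by
    rw [← htot, ← Finset.sum_erase_add _ _ (Finset.mem_univ (0 : F))]
    refine Nat.add_le_add_right ?_ _
    have := Finset.card_nsmul_le_sum _ _ _ hmin
    rwa [Finset.card_erase_of_mem (Finset.mem_univ _), Finset.card_univ, smul_eq_mul] at this
  -- double count
  obtain ⟨N, hNO, hN00, hNc, hNr, hNs, hNne⟩ := hsplit a ha0 (hrep a ha0)
  set W' := N.submatrix Fin.succ Fin.succ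
  have hfibre : q ^ m * (congrOrbit W').card ≤ (O.filter fun M => M 0 0 = a).card := by
    have : ((Finset.univ : Finset (Fin m → F)) ×ˢ congrOrbit W').card ≤
        ((O.filter fun M => M 0 0 = a).image fun M =>
          ((fun i : Fin m => M i.succ 0 / a),
           Matrix.of fun i k : Fin m => M i.succ k.succ - M i.succ 0 / a * a * (M k.succ 0 / a))).card := by
      refine Finset.card_le_card ?_
      rintro ⟨u, M'⟩ huM
      obtain ⟨G, hG, rfl⟩ := mem_congrOrbit.1 (Finset.mem_product.1 huM).2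
      obtain ⟨e1, e2, e3⟩ := loMat_congr u G N hNc hNr
      refine Finset.mem_image.2 ⟨loMat u G * N * (loMat u G)ᵀ, Finset.mem_filter.2
        ⟨congrOrbit_trans hNO _ (by rwa [det_loMat]), e1.trans hN00⟩, ?_⟩
      refine Prod.ext (funext fun i => ?_) (Matrix.ext fun i k => ?_)
      · simp only [e2, hN00]; field_simp
      · simp only [Matrix.of_apply, e2, e3, hN00]; field_simp; ring
    rw [Finset.card_product, Finset.card_univ, Fintype.card_fun, Fintype.card_fin] at this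
    exact this.trans Finset.card_image_le
  have hW' : q ^ m ≤ 2 * (congrOrbit W').card + 1 := card_congrOrbit h2 m W' hNs hNne
  have hcount : (q ^ (m + 1) - 1) * (O.filter fun M => M 0 0 = a).card ≤ O.card * repCount W a := by
    have h1 : ∑ M ∈ O, repCount M a = O.card * repCount W a := by
      rw [Finset.sum_congr rfl (g := fun _ => repCount W a), Finset.sum_const, smul_eq_mul]
      intro M hM
      obtain ⟨B, hB, rfl⟩ := mem_congrOrbit.1 hM
      exact repCount_congr hB a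
    have h3 : ∑ M ∈ O, repCount M a =
        ∑ z : Fin (m + 1) → F, (O.filter fun M => z ⬝ᵥ (M *ᵥ z) = a).card := by
      simp only [repCount, Finset.card_filter]
      exact Finset.sum_comm
    rw [← h1, h3]
    have h4 : ∀ z ∈ Finset.univ.erase (0 : Fin (m + 1) → F),
        (O.filter fun M => M 0 0 = a).card ≤ (O.filter fun M => z ⬝ᵥ (M *ᵥ z) = a).card := by
      intro z hz
      obtain ⟨G, hG, hGz⟩ := exists_det_row (Finset.ne_of_mem_erase hz)
      have hu : IsUnit G.det := hG.isUnit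
      have hu' : IsUnit Gᵀ.det := by rw [Matrix.det_transpose]; exact hu
      have hinv : G⁻¹.det ≠ 0 := (Matrix.isUnit_nonsing_inv_det _ hu).ne_zero
      have hcan : ∀ M, G * (G⁻¹ * M * (G⁻¹)ᵀ) * Gᵀ = M := fun M => by
        rw [Matrix.transpose_nonsing_inv]
        simp only [← Matrix.mul_assoc, Matrix.mul_nonsing_inv _ hu, Matrix.one_mul]
        rw [Matrix.mul_assoc, Matrix.nonsing_inv_mul _ hu', Matrix.mul_one]
      refine Finset.card_le_card_of_injOn (fun M => G⁻¹ * M * (G⁻¹)ᵀ) ?_ ?_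
      · intro M hM
        simp only [Finset.coe_filter, Set.mem_ofPred_eq] at hM ⊢
        refine ⟨congrOrbit_trans hM.1 _ hinv, ?_⟩
        rw [← hM.2]
        conv_rhs => rw [← hcan M, congr_apply', hGz]
      · intro M _ M' _ h
        rw [← hcan M, ← hcan M']
        exact congrArg (fun X => G * X * Gᵀ) h
    calc _ = (Finset.univ.erase (0 : Fin (m + 1) → F)).card • (O.filter fun M => M 0 0 = a).card := by
          rw [Finset.card_erase_of_mem (Finset.mem_univ _), Finset.card_univ, Fintype.card_fun, Fintype.card_fin,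
            smul_eq_mul]
      _ ≤ _ := Finset.card_nsmul_le_sum _ _ _ h4
      _ ≤ _ := Finset.sum_le_sum_of_subset (Finset.erase_subset _ _)
  -- arithmetic
  obtain ⟨m', rfl⟩ : ∃ m', m = m' + 1 := by
    refine ⟨m - 1, ?_⟩
    rcases m with _ | m
    · exact absurd (Subsingleton.elim _ _) hNne
    · omega
  clear_value q
  obtain ⟨p, rfl⟩ : ∃ p, q = p + 1 := ⟨q - 1, by omega⟩
  rw [Nat.add_sub_cancel] at hVa
  set P := (p + 1) ^ m' with hP
  have hP0 : 0 < P := pow_pos (Nat.succ_pos _) _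
  have e1 : (p + 1) ^ (m' + 1) = P * (p + 1) := pow_succ _ _
  have e2 : (p + 1) ^ (m' + 1 + 1) = P * (p + 1) * (p + 1) := by rw [pow_succ, e1]
  rw [e1] at hW' hfibre hzero
  rw [e2] at hVa hcount ⊢
  set V₀ := repCount W 0
  set Va := repCount W a
  set h := (congrOrbit W').card
  set K := P * (p + 1) * (p + 1) - 1
  have hV0 : P ≤ V₀ := Nat.le_of_mul_le_mul_left (by rw [mul_comm (p + 1) P]; exact hzero) (Nat.succ_pos p)
  have hVa' : Va ≤ P * (p + 2) := by
    refine Nat.le_of_mul_le_mul_left (?_ : p * Va ≤ p * (P * (p + 2))) (by omega)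
    nlinarith
  have h5 : K * (P * (p + 1) * h) ≤ O.card * (P * (p + 2)) :=
    calc K * (P * (p + 1) * h) ≤ K * (O.filter fun M => M 0 0 = a).card := Nat.mul_le_mul_left _ hfibre
      _ ≤ O.card * Va := hcount
      _ ≤ O.card * (P * (p + 2)) := Nat.mul_le_mul_left _ hVa'
  have h6 : K * ((p + 1) * h) ≤ O.card * (p + 2) := Nat.le_of_mul_le_mul_left (by nlinarith) hP0
  have h7 : P * (p + 1) * (p + 1) - (p + 1) ≤ 2 * ((p + 1) * h) := by
    have := Nat.mul_le_mul_right (p + 1) hW'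
    rw [add_mul, one_mul] at this
    rw [Nat.sub_le_iff_le_add]
    linarith
  calc K * (P * (p + 1) * (p + 1) - (p + 1)) ≤ K * (2 * ((p + 1) * h)) := Nat.mul_le_mul_left _ h7
    _ ≤ 2 * (p + 1 + 1) * O.card := by nlinarith

end CfsgLib.SpWeilChars
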