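import Cfsg.Agent.SpWeilChars.Module
import Cfsg.Agent.SpWeilChars.Orbit
import Cfsg.Agent.Classical.CrossChar
import Cfsg.Agent.Classical.Symp.Simple
import Mathlib.RepresentationTheory.Character
import Mathlib.RepresentationTheory.Irreducible

/-!
Irreducible representations of `Sp_2n(q)`, `q` odd, whose Siegel weights have rank at most one are
determined by the class of the weights and the central sign; all others have large degree.
-/

set_option autoImplicit false
set_option linter.unusedSectionVars false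

namespace CfsgLib.SpWeilChars

open Matrix

variable {F : Type*} [Field F] [Fintype F] [DecidableEq F] {n : ℕ}
variable {V : Type*} [AddCommGroup V] [Module ℂ V]
variable {V' : Type*} [AddCommGroup V'] [Module ℂ V']
variable {ρ : Representation ℂ (symplecticGroup (Fin n) F) V}
variable {ρ' : Representation ℂ (symplecticGroup (Fin n) F) V'} {ψ : AddChar F ℂ}

theorem qS_eDiag_not_comm (i : Fin n) : qS (eDiag i (1 : F)) * wEl F i ≠ wEl F i * qS (eDiag i (1 : F)) := by
  intro h
  have := congrArg (fun g : symplecticGroup (Fin n) F =>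
    (g : Matrix (Fin n ⊕ Fin n) (Fin n ⊕ Fin n) F) (Sum.inl i) (Sum.inl i)) h
  simp [qS_eDiag_coe, wEl_coe, slMat_mul] at this
  simp [slMat, eMat] at this

variable (hψ : ∀ a : F, a ≠ 0 → ∃ x : F, ψ (a * x) ≠ 1) (h2 : (2 : F) ≠ 0)

include hψ h2 in
theorem proj_eq_zero_iff (W : symSub n F) : proj ρ ψ W = 0 ↔ wt ρ ψ W = ⊥ := by
  constructor
  · intro h
    rw [Submodule.eq_bot_iff]
    intro v hv
    have := proj_apply_of_mem ρ hψ h2 (W := W) hv
    rwa [h, LinearMap.zero_apply, if_pos rfl, eq_comm] at this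
  · intro h
    ext v
    have := proj_mem ρ ψ W v
    rwa [h, Submodule.mem_bot] at this

include hψ h2 in
theorem trace_proj [FiniteDimensional ℂ V] (W : symSub n F) :
    LinearMap.trace ℂ V (proj ρ ψ W) = (Module.finrank ℂ (wt ρ ψ W) : ℂ) := by
  refine LinearMap.IsProj.trace ⟨fun v => proj_mem ρ ψ W v, fun v hv => ?_⟩
  rw [proj_apply_of_mem ρ hψ h2 hv, if_pos rfl]

include hψ h2 in
/-- Weight multiplicities are read off from the character. -/
theorem finrank_wt_eq_of_character [FiniteDimensional ℂ V] [FiniteDimensional ℂ V']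
    (h : ∀ g, LinearMap.trace ℂ V (ρ g) = LinearMap.trace ℂ V' (ρ' g)) (W : symSub n F) :
    Module.finrank ℂ (wt ρ ψ W) = Module.finrank ℂ (wt ρ' ψ W) := by
  have h1 := trace_proj (ρ := ρ) hψ h2 W
  have h3 := trace_proj (ρ := ρ') hψ h2 W
  rw [proj, map_smul, map_sum] at h1 h3
  simp only [map_smul, h] at h1
  simp only [map_smul] at h3
  exact_mod_cast h1.symm.trans h3

/-- The key `(a, σ)` of a representation whose weights have rank at most one. -/
structure HasKey (ρ : Representation ℂ (symplecticGroup (Fin n) F) V) (ψ : AddChar F ℂ) (j : Fin n) (a : F)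
    (σ : ℂ) : Prop where
  low : LowRank ρ ψ
  scalar : ∀ v, ρ (levi (-1)) v = σ • v
  weight : ∃ m, m ≠ 0 ∧ m ∈ wt ρ ψ (rk1 a (Pi.single j 1))

theorem eq_bot_or_top (hρ : ρ.IsIrreducible) (S : Submodule ℂ V) (h : ∀ g, ∀ v ∈ S, ρ g v ∈ S) :
    S = ⊥ ∨ S = ⊤ := by
  let S' : Subrepresentation ρ := ⟨S, fun g v hv => h g v hv⟩
  rcases @IsSimpleOrder.eq_bot_or_eq_top _ _ _ hρ S' with e | e
  · exact Or.inl (congrArg Subrepresentation.toSubmodule e)
  · exact Or.inr (congrArg Subrepresentation.toSubmodule e)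

theorem exists_central_sign (hn : 2 ≤ n) (hρ : ρ.IsIrreducible) :
    ∃ σ : ℂ, (σ = 1 ∨ σ = -1) ∧ ∀ v, ρ (levi (-1)) v = σ • v := by
  have hc : ∀ g : symplecticGroup (Fin n) F,
      g * levi (-1 : GL (Fin n) F) = levi (-1 : GL (Fin n) F) * g := by
    intro g
    apply Subtype.ext
    have : (levi (-1 : GL (Fin n) F) : Matrix (Fin n ⊕ Fin n) (Fin n ⊕ Fin n) F) = -1 := by
      rw [levi_coe, inv_neg, inv_one, Units.val_neg, Units.val_one, transpose_neg, transpose_one,
        ← fromBlocks_one, fromBlocks_neg, neg_zero]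
    simp [this]
  let S : Submodule ℂ V :=
    { carrier := {v | ρ (levi (-1)) v = v}
      zero_mem' := map_zero _
      add_mem' := fun {a b} (ha : _ = _) (hb : _ = _) => show _ = _ by rw [map_add, ha, hb]
      smul_mem' := fun c {a} (ha : _ = _) => show _ = _ by rw [map_smul, ha] }
  rcases eq_bot_or_top hρ S (fun g v (hv : _ = _) => by
      show _ = _
      rw [← Module.End.mul_apply, ← map_mul, ← hc, map_mul, Module.End.mul_apply, hv]) with h | h
  · refine ⟨-1, Or.inr rfl, fun v => ?_⟩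
    have hmem : v + ρ (levi (-1)) v ∈ S := by
      show _ = _
      rw [map_add, ← Module.End.mul_apply, ← map_mul, ← map_mul levi]
      simp [add_comm]
    rw [h, Submodule.mem_bot] at hmem
    rw [neg_one_smul]
    exact eq_neg_of_add_eq_zero_right hmem
  · refine ⟨1, Or.inl rfl, fun v => ?_⟩
    have : v ∈ S := h ▸ Submodule.mem_top
    rw [one_smul]; exact this

include hψ h2 in
theorem exists_weight_ne_zero (hn : 2 ≤ n) (hperf : commutator (symplecticGroup (Fin n) F) = ⊤)
    (hnt : ∃ g, ρ g ≠ 1) : ∃ W : symSub n F, W ≠ 0 ∧ wt ρ ψ W ≠ ⊥ := by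
  by_contra hc
  push Not at hc
  let i : Fin n := ⟨0, by omega⟩
  have hq : qS (eDiag i (1 : F)) ∈ MonoidHom.ker ρ := by
    rw [MonoidHom.mem_ker]
    ext v
    rw [Module.End.one_apply]
    conv_rhs => rw [← sum_proj_apply ρ hψ h2 v]
    conv_lhs => rw [← sum_proj_apply ρ hψ h2 v, map_sum]
    refine Finset.sum_congr rfl fun W _ => ?_
    by_cases hW : W = 0
    · subst hW
      rw [proj_mem ρ ψ 0 v _]
      simp [pairing_apply]
    · rw [(proj_eq_zero_iff hψ h2 W).2 (hc W hW), LinearMap.zero_apply, map_zero]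
  rcases CfsgLib.Classical.Symp.le_center_or_eq_top hperf (MonoidHom.ker ρ) with h | h
  · exact qS_eDiag_not_comm i (Subgroup.mem_center_iff.1 (h hq) (wEl F i)).symm
  · obtain ⟨g, hg⟩ := hnt
    exact hg (MonoidHom.mem_ker.1 (h ▸ Subgroup.mem_top g : g ∈ MonoidHom.ker ρ))

include hψ h2 in
/-- A representation with weights of rank at most one has a key. -/
theorem exists_hasKey (hn : 2 ≤ n) (hperf : commutator (symplecticGroup (Fin n) F) = ⊤)
    (hρ : ρ.IsIrreducible) (hnt : ∃ g, ρ g ≠ 1) (hlow : LowRank ρ ψ) (ν : F) (hν : ¬ IsSquare ν)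
    (j : Fin n) : ∃ a σ, (a = 1 ∨ a = ν) ∧ (σ = 1 ∨ σ = -1) ∧ HasKey ρ ψ j a σ := by
  obtain ⟨W, hW0, hW⟩ := exists_weight_ne_zero hψ h2 hn hperf hnt
  obtain ⟨v, hv, hv0⟩ := (Submodule.ne_bot_iff _).1 hW
  obtain ⟨δ, x, rfl⟩ := hlow W v hv0 hv
  have hδ : δ ≠ 0 := fun h => hW0 (by apply Subtype.ext; simp [rk1, h])
  have hx : x ≠ 0 := fun h => hW0 (by rw [h, rk1_zero])
  obtain ⟨σ, hσ, hσv⟩ := exists_central_sign hn hρ
  obtain ⟨a, c, ha, hac⟩ : ∃ a c, (a = 1 ∨ a = ν) ∧ a * c ^ 2 = δ := by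
    by_cases hs : IsSquare δ
    · obtain ⟨c, rfl⟩ := hs; exact ⟨1, c, Or.inl rfl, by ring⟩
    · have hν0 : ν ≠ 0 := fun h => hν (h ▸ IsSquare.zero)
      have h3 : IsSquare (δ / ν) := by
        rw [← quadraticChar_one_iff_isSquare (div_ne_zero hδ hν0)]
        have e1 := quadraticChar_neg_one_iff_not_isSquare.2 hs
        have e2 := quadraticChar_neg_one_iff_not_isSquare.2 hν
        have h4 : quadraticChar F (δ / ν) * quadraticChar F ν = quadraticChar F δ := by
          rw [← map_mul, div_mul_cancel₀ _ hν0]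
        rw [e1, e2] at h4
        linarith
      obtain ⟨c, hc⟩ := h3
      refine ⟨ν, c, Or.inr rfl, ?_⟩
      field_simp at hc
      linear_combination -hc
  rw [← hac, ← rk1_smul] at hv
  have hcx : c • x ≠ 0 := by
    refine smul_ne_zero ?_ hx
    rintro rfl
    exact hδ (by rw [← hac]; ring)
  obtain ⟨A, hA⟩ := exists_gl_mulVec hn j hcx
  refine ⟨a, σ, ha, hσ, hlow, hσv, ρ (levi A⁻¹) v, fun h => hv0 ?_, ?_⟩
  · have := congrArg (ρ (levi A)) h
    rwa [← Module.End.mul_apply, ← map_mul, ← map_mul levi, mul_inv_cancel, map_one, map_one,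
      Module.End.one_apply, map_zero] at this
  · have := levi_mem_wt ρ ψ (A := A⁻¹) hv
    rwa [actSym_rk1, ← hA, Matrix.mulVec_mulVec, ← Units.val_mul, inv_mul_cancel, Units.val_one,
      Matrix.one_mulVec] at this

/-- The direct sum. -/
def sumRep (ρ : Representation ℂ (symplecticGroup (Fin n) F) V)
    (ρ' : Representation ℂ (symplecticGroup (Fin n) F) V') :
    Representation ℂ (symplecticGroup (Fin n) F) (V × V') where
  toFun g := (ρ g).prodMap (ρ' g)
  map_one' := by
    refine LinearMap.ext fun v => Prod.ext ?_ ?_ <;> simp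
  map_mul' g h := by
    refine LinearMap.ext fun v => Prod.ext ?_ ?_ <;> simp

theorem sumRep_apply (g : symplecticGroup (Fin n) F) (v : V × V') :
    sumRep ρ ρ' g v = (ρ g v.1, ρ' g v.2) := rfl

theorem mem_wt_sumRep {W : symSub n F} {v : V × V'} :
    v ∈ wt (sumRep ρ ρ') ψ W ↔ v.1 ∈ wt ρ ψ W ∧ v.2 ∈ wt ρ' ψ W := by
  simp only [mem_wt, sumRep_apply, Prod.ext_iff, Prod.smul_fst, Prod.smul_snd, forall_and]

include hψ h2 in
/-- Two irreducible representations with the same key have the same character. -/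
theorem trace_eq_of_hasKey [FiniteDimensional ℂ V] [FiniteDimensional ℂ V'] (hn : 2 ≤ n) {j : Fin n} {a : F}
    (ha : a ≠ 0) {σ : ℂ} (hρ : ρ.IsIrreducible) (hρ' : ρ'.IsIrreducible) (h : HasKey ρ ψ j a σ)
    (h' : HasKey ρ' ψ j a σ) (g : symplecticGroup (Fin n) F) :
    LinearMap.trace ℂ V (ρ g) = LinearMap.trace ℂ V' (ρ' g) := by
  obtain ⟨m, hm0, hm⟩ := h.weight
  obtain ⟨m', hm'0, hm'⟩ := h'.weight
  have hlow : LowRank (sumRep ρ ρ') ψ := by
    intro W v hv0 hv
    rw [mem_wt_sumRep] at hv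
    by_cases h1 : v.1 = 0
    · exact h'.low W v.2 (fun h3 => hv0 (Prod.ext h1 h3)) hv.2
    · exact h.low W v.1 h1 hv.1
  have hσ : ∀ v, sumRep ρ ρ' (levi (-1)) v = σ • v := fun v => by
    rw [sumRep_apply, h.scalar, h'.scalar]; rfl
  have hne : ((m, m') : V × V') ≠ 0 := fun e => hm0 (congrArg Prod.fst e)
  obtain ⟨S, hS, hmS, hline, -⟩ := exists_invariant (ρ := sumRep ρ ρ') hψ h2 hlow ha hσ
    (mem_wt_sumRep.2 ⟨hm, hm'⟩) hn hne
  have hfst : S.map (LinearMap.fst ℂ V V') = ⊤ := by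
    refine (eq_bot_or_top hρ _ ?_).resolve_left ?_
    · rintro g v hv
      obtain ⟨w, hw, rfl⟩ := Submodule.mem_map.1 hv
      exact Submodule.mem_map.2 ⟨_, hS g w hw, rfl⟩
    · intro e
      have : m ∈ S.map (LinearMap.fst ℂ V V') := Submodule.mem_map.2 ⟨_, hmS, rfl⟩
      rw [e, Submodule.mem_bot] at this
      exact hm0 this
  have hsnd : S.map (LinearMap.snd ℂ V V') = ⊤ := by
    refine (eq_bot_or_top hρ' _ ?_).resolve_left ?_
    · rintro g v hv
      obtain ⟨w, hw, rfl⟩ := Submodule.mem_map.1 hv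
      exact Submodule.mem_map.2 ⟨_, hS g w hw, rfl⟩
    · intro e
      have : m' ∈ S.map (LinearMap.snd ℂ V V') := Submodule.mem_map.2 ⟨_, hmS, rfl⟩
      rw [e, Submodule.mem_bot] at this
      exact hm'0 this
  have hkfst : S.comap (LinearMap.inr ℂ V V') = ⊥ := by
    refine (eq_bot_or_top hρ' _ ?_).resolve_right ?_
    · intro g v hv
      rw [Submodule.mem_comap, LinearMap.inr_apply] at hv ⊢
      simpa [sumRep_apply] using hS g _ hv
    · intro e
      obtain ⟨c, hc⟩ := hline (0, m') (e ▸ Submodule.mem_top : m' ∈ S.comap (LinearMap.inr ℂ V V'))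
      rw [proj_apply_of_mem _ hψ h2 (mem_wt_sumRep.2 ⟨Submodule.zero_mem _, hm'⟩), if_pos rfl] at hc
      have hc0 : c = 0 := (smul_eq_zero.1 (congrArg Prod.fst hc).symm).resolve_right hm0
      rw [hc0, zero_smul] at hc
      exact hm'0 (congrArg Prod.snd hc)
  have hksnd : S.comap (LinearMap.inl ℂ V V') = ⊥ := by
    refine (eq_bot_or_top hρ _ ?_).resolve_right ?_
    · intro g v hv
      rw [Submodule.mem_comap, LinearMap.inl_apply] at hv ⊢
      simpa [sumRep_apply] using hS g _ hv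
    · intro e
      obtain ⟨c, hc⟩ := hline (m, 0) (e ▸ Submodule.mem_top : m ∈ S.comap (LinearMap.inl ℂ V V'))
      rw [proj_apply_of_mem _ hψ h2 (mem_wt_sumRep.2 ⟨hm, Submodule.zero_mem _⟩), if_pos rfl] at hc
      have hc0 : c = 0 := (smul_eq_zero.1 (congrArg Prod.snd hc).symm).resolve_right hm'0
      rw [hc0, zero_smul] at hc
      exact hm0 (congrArg Prod.fst hc)
  let f : S →ₗ[ℂ] V := (LinearMap.fst ℂ V V').comp S.subtype
  let f' : S →ₗ[ℂ] V' := (LinearMap.snd ℂ V V').comp S.subtype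
  have hf : Function.Bijective f := by
    refine ⟨(injective_iff_map_eq_zero f).2 fun w hw => ?_, fun v => ?_⟩
    · have hz : (w : V × V').1 = 0 := hw
      have h1 : (w : V × V').2 ∈ S.comap (LinearMap.inr ℂ V V') := by
        rw [Submodule.mem_comap, LinearMap.inr_apply, ← hz]; exact w.2
      rw [hkfst, Submodule.mem_bot] at h1
      exact Subtype.ext (Prod.ext hz h1)
    · obtain ⟨w, hw, e⟩ := Submodule.mem_map.1 (hfst ▸ Submodule.mem_top : v ∈ S.map (LinearMap.fst ℂ V V'))
      exact ⟨⟨w, hw⟩, e⟩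
  have hf' : Function.Bijective f' := by
    refine ⟨(injective_iff_map_eq_zero f').2 fun w hw => ?_, fun v => ?_⟩
    · have hz : (w : V × V').2 = 0 := hw
      have h1 : (w : V × V').1 ∈ S.comap (LinearMap.inl ℂ V V') := by
        rw [Submodule.mem_comap, LinearMap.inl_apply, ← hz]; exact w.2
      rw [hksnd, Submodule.mem_bot] at h1
      exact Subtype.ext (Prod.ext h1 hz)
    · obtain ⟨w, hw, e⟩ := Submodule.mem_map.1 (hsnd ▸ Submodule.mem_top : v ∈ S.map (LinearMap.snd ℂ V V'))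
      exact ⟨⟨w, hw⟩, e⟩
  let E : V ≃ₗ[ℂ] V' := (LinearEquiv.ofBijective f hf).symm.trans (LinearEquiv.ofBijective f' hf')
  have hE : ∀ v, E (ρ g v) = ρ' g (E v) := by
    intro v
    obtain ⟨w, rfl⟩ := hf.2 v
    have h1 : ∀ u : S, E (f u) = f' u := fun u => by
      simp only [E, LinearEquiv.trans_apply]
      rw [show f u = LinearEquiv.ofBijective f hf u from rfl, LinearEquiv.symm_apply_apply]
      rfl
    have h3 : ρ g (f w) = f ⟨sumRep ρ ρ' g w, hS g w w.2⟩ := rfl
    rw [h3, h1, h1]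
    rfl
  rw [← LinearMap.trace_conj' (ρ g) E]
  congr 1
  ext v
  rw [LinearEquiv.conj_apply_apply, hE, LinearEquiv.apply_symm_apply]

include hψ h2 in
/-- The degree in the low rank case. -/
theorem finrank_of_hasKey [FiniteDimensional ℂ V] (hn : 2 ≤ n) {j : Fin n} {a : F} (ha : a ≠ 0) {σ : ℂ}
    (hρ : ρ.IsIrreducible) (h : HasKey ρ ψ j a σ) :
    2 * Module.finrank ℂ V + 1 = Fintype.card F ^ n ∨ 2 * Module.finrank ℂ V = Fintype.card F ^ n + 1 := by
  obtain ⟨m, hm0, hm⟩ := h.weight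
  obtain ⟨S, hS, hmS, -, hd⟩ := exists_invariant hψ h2 h.low ha h.scalar hm hn hm0
  have : S = ⊤ := (eq_bot_or_top hρ S hS).resolve_left fun e => hm0 (by rwa [e, Submodule.mem_bot] at hmS)
  rwa [this, finrank_top] at hd

include hψ h2 in
/-- A weight of rank at least two gives a large degree. -/
theorem bound_of_not_lowRank [FiniteDimensional ℂ V] (h : ¬ LowRank ρ ψ) :
    (Fintype.card F ^ n - 1) * (Fintype.card F ^ n - Fintype.card F) ≤
      2 * (Fintype.card F + 1) * Module.finrank ℂ V := by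
  classical
  unfold LowRank at h
  push Not at h
  obtain ⟨W, v, hv0, hv, hr⟩ := h
  refine (card_congrOrbit_of_not_rank_one h2 (W : Matrix (Fin n) (Fin n) F) W.2
    fun ε x e => hr ε x (Subtype.ext e)).trans (Nat.mul_le_mul_left _ ?_)
  have hex : ∀ M : {M // M ∈ CfsgLib.SympWeil.congrOrbit (W : Matrix (Fin n) (Fin n) F)},
      ∃ (U : symSub n F) (u : V), (U : Matrix (Fin n) (Fin n) F) = M.1 ∧ u ≠ 0 ∧ u ∈ wt ρ ψ U := by
    rintro ⟨M, hM⟩
    obtain ⟨A, hA, rfl⟩ := CfsgLib.SympWeil.mem_congrOrbit.1 hM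
    let a := Matrix.GeneralLinearGroup.mkOfDetNeZero A hA
    refine ⟨actSym (a : Matrix (Fin n) (Fin n) F) W, ρ (levi a) v, rfl, fun e => hv0 ?_, levi_mem_wt ρ ψ hv⟩
    have := congrArg (ρ (levi a)⁻¹) e
    rwa [← Module.End.mul_apply, ← map_mul, inv_mul_cancel, map_one, Module.End.one_apply, map_zero] at this
  choose U u hU hu0 hu using hex
  have hinj : Function.Injective U := fun M N e => Subtype.ext (by rw [← hU M, e, hU N])
  have hli : LinearIndependent ℂ u := by
    rw [Fintype.linearIndependent_iff]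
    intro g hg M
    have h1 := congrArg (proj ρ ψ (U M)) hg
    rw [map_sum, map_zero, Finset.sum_eq_single M] at h1
    · rw [map_smul, proj_apply_of_mem ρ hψ h2 (hu M), if_pos rfl] at h1
      exact (smul_eq_zero.1 h1).resolve_right (hu0 M)
    · intro N _ hne
      rw [map_smul, proj_apply_of_mem ρ hψ h2 (hu N), if_neg (fun e => hne (hinj e).symm), smul_zero]
    · simp
  have := hli.fintype_card_le_finrank
  rwa [Fintype.card_coe] at this

end CfsgLib.SpWeilChars
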