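import Cfsg.Agent.SympWeil.Weil
import Cfsg.Agent.SpWeilChars.Classify

/-!
The weights of the two parts of the Weil representations of `Sp_2n(q)`, `q` odd.
-/

set_option autoImplicit false
set_option linter.unusedSectionVars false

namespace CfsgLib.SpWeilChars

open Matrix CfsgLib.SympWeil

variable {F : Type*} [Field F] [Fintype F] [DecidableEq F] {n : ℕ}

/-- The lower Siegel radical. -/
def lS (C : symSub n F) : symplecticGroup (Fin n) F :=
  ⟨fromBlocks 1 0 (C : Matrix (Fin n) (Fin n) F) 1, by
    rw [SymplecticGroup.mem_iff]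
    simp [J, fromBlocks_multiply, fromBlocks_transpose, symSub_transpose]⟩

theorem lS_coe (C : symSub n F) :
    (lS C : Matrix (Fin n ⊕ Fin n) (Fin n ⊕ Fin n) F) = fromBlocks 1 0 (C : Matrix (Fin n) (Fin n) F) 1 := rfl

theorem qS_mul_symJ (S : symSub n F) :
    qS S * SymplecticGroup.symJ (Fin n) F = SymplecticGroup.symJ (Fin n) F * lS (-S) := by
  apply Subtype.ext
  simp [qS_coe, lS_coe, SymplecticGroup.coe_J, J, fromBlocks_multiply]

/-- The coordinates of a parity part. -/
theorem det_restrict_diag {s : ℂ} (hs : s = 1 ∨ s = -1) (h2 : (2 : F) ≠ 0)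
    (R : Finset (Fin n → F)) (hR : ∀ t, t ∈ R ∨ -t ∈ R ∨ (t = 0 ∧ s = -1))
    (hR' : ∀ t, t ∈ R → -t ∈ R → t = 0 ∧ s = 1) (φ : (Fin n → F) → ℂ) (T : parityUnits F n)
    (hT : ∀ f t, ((T : (FunOp F n)ˣ) : FunOp F n) f t = φ t * f t) :
    parityDet F n s T = ∏ t ∈ R, φ t := by
  classical
  have hs2 : s * s = 1 := by rcases hs with rfl | rfl <;> norm_num
  let res : parityPart F n s →ₗ[ℂ] ({t // t ∈ R} → ℂ) :=
    { toFun := fun f t => (f : (Fin n → F) → ℂ) t.1
      map_add' := fun f g => rfl
      map_smul' := fun c f => rfl }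
  have hpar : ∀ (f : parityPart F n s) (t : Fin n → F),
      (f : (Fin n → F) → ℂ) (-t) = s * (f : (Fin n → F) → ℂ) t := fun f t =>
    congrFun (mem_parityPart.1 f.2) t
  have hbij : Function.Bijective res := by
    constructor
    · intro f g h
      apply Subtype.ext
      funext t
      rcases hR t with h1 | h1 | ⟨rfl, rfl⟩
      · exact congrFun h ⟨t, h1⟩
      · have := congrFun h ⟨-t, h1⟩
        have e1 := hpar f (-t); have e2 := hpar g (-t)
        rw [neg_neg] at e1 e2
        rw [e1, e2]
        exact congrArg (s * ·) this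
      · have e1 := hpar f 0; have e2 := hpar g 0
        rw [neg_zero] at e1 e2
        have e1' : (f : (Fin n → F) → ℂ) 0 = 0 := by linear_combination (1 / 2 : ℂ) * e1
        have e2' : (g : (Fin n → F) → ℂ) 0 = 0 := by linear_combination (1 / 2 : ℂ) * e2
        rw [e1', e2']
    · intro g
      let f : (Fin n → F) → ℂ := fun t =>
        if h : t ∈ R then g ⟨t, h⟩ else if h' : -t ∈ R then s * g ⟨-t, h'⟩ else 0
      refine ⟨⟨f, mem_parityPart.2 (funext fun t => ?_)⟩, funext fun t => ?_⟩
      · rw [jop_apply, Pi.smul_apply, smul_eq_mul]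
        simp only [f, neg_neg]
        by_cases h : t ∈ R <;> by_cases h' : -t ∈ R
        · obtain ⟨rfl, rfl⟩ := hR' t h h'
          simp [h]
        · simp [h, h']
        · simp [h, h', ← mul_assoc, hs2]
        · simp [h, h']
      · simp [res, f]
  let e := LinearEquiv.ofBijective res hbij
  rw [parityDet, MonoidHom.comp_apply, ← LinearMap.det_conj (parityHom F n s T) e]
  have : (e : parityPart F n s →ₗ[ℂ] _) ∘ₗ parityHom F n s T ∘ₗ (e.symm : _ →ₗ[ℂ] parityPart F n s) =
      Matrix.toLin' (Matrix.diagonal fun t : {t // t ∈ R} => φ t.1) := by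
    refine LinearMap.ext fun g => funext fun t => ?_
    rw [Matrix.toLin'_apply, Matrix.mulVec_diagonal]
    have h1 : (e.symm g : (Fin n → F) → ℂ) t.1 = g t := congrFun (e.apply_symm_apply g) t
    rw [← h1]
    exact hT (e.symm g : (Fin n → F) → ℂ) t.1
  rw [this, LinearMap.det_toLin', Matrix.det_diagonal]
  exact (Finset.prod_coe_sort R φ)

section Weil

variable {ψ : AddChar F ℂ} (hψ : ∀ a : F, a ≠ 0 → ∃ x : F, ψ (a * x) ≠ 1) (h2 : (2 : F) ≠ 0)
variable {a : F} (ha : a ≠ 0)

include hψ ha in
theorem mulShift_prim : ∀ b : F, b ≠ 0 → ∃ x : F, ψ.mulShift a (b * x) ≠ 1 := by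
  intro b hb
  obtain ⟨x, hx⟩ := hψ (a * b) (mul_ne_zero ha hb)
  exact ⟨x, by rwa [AddChar.mulShift_apply, ← mul_assoc]⟩

/-- The multiplier of the lower radical. -/
noncomputable def phiC (ψ : AddChar F ℂ) (a : F) (C : symSub n F) (t : Fin n → F) : ℂ :=
  ψ.mulShift a (-(2⁻¹ * (t ⬝ᵥ ((C : Matrix (Fin n) (Fin n) F) *ᵥ t))))

/-- A Weil representation on a parity part. -/
noncomputable def wRep (s : ℂ) : Representation ℂ (symplecticGroup (Fin n) F) (parityPart F n s) :=
  (parityHom F n s).comp (weil (ψ.mulShift a) (mulShift_prim hψ ha) h2)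

theorem wRep_apply (s : ℂ) (g : symplecticGroup (Fin n) F) (f : parityPart F n s) :
    (wRep hψ h2 ha s g f : (Fin n → F) → ℂ) = weilOp (ψ.mulShift a) (mulShift_prim hψ ha) h2 g f := rfl

include hψ h2 ha in
theorem weilOp_lS (C : symSub n F) (f : (Fin n → F) → ℂ) (t : Fin n → F) :
    weilOp (ψ.mulShift a) (mulShift_prim hψ ha) h2 (lS C) f t = phiC ψ a C t * f t := by
  classical
  set φ := phiC ψ a C
  have hev : ∀ t, φ (-t) = φ t := fun t => by simp [φ, phiC, Matrix.mulVec_neg]
  have hne : ∀ t, φ t ≠ 0 := fun t => by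
    intro h
    have h1 := AddChar.val_isUnit (ψ.mulShift a) (-(2⁻¹ * (t ⬝ᵥ ((C : Matrix (Fin n) (Fin n) F) *ᵥ t))))
    rw [show (ψ.mulShift a) _ = φ t from rfl, h] at h1
    exact not_isUnit_zero h1
  let M : FunOp F n :=
    { toFun := fun f t => φ t * f t
      map_add' := fun f g => by funext t; simp [mul_add]
      map_smul' := fun c f => by funext t; simp; ring }
  let Mi : FunOp F n :=
    { toFun := fun f t => (φ t)⁻¹ * f t
      map_add' := fun f g => by funext t; simp [mul_add]
      map_smul' := fun c f => by funext t; simp; ring }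
  let U : (FunOp F n)ˣ :=
    ⟨M, Mi, LinearMap.ext fun f => funext fun t => by simp [M, Mi, hne t],
      LinearMap.ext fun f => funext fun t => by simp [M, Mi, hne t]⟩
  let T : parityUnits F n := ⟨U, LinearMap.ext fun f => funext fun t => by
    simp [U, M, jop_apply, hev]⟩
  have hlift : IsLift (ψ.mulShift a) (lS C) T := by
    refine ⟨fun v => LinearMap.ext fun f => funext fun t => ?_, ?_⟩
    · simp only [T, U, M, Module.End.mul_apply, LinearMap.coe_mk, AddHom.coe_mk, wop_apply]
      have hl : lpart ((lS C : Matrix (Fin n ⊕ Fin n) (Fin n ⊕ Fin n) F) *ᵥ v) = lpart v := by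
        funext k; simp [lpart, lS_coe, Matrix.fromBlocks_mulVec, Function.comp_def]
      have hr : rpart ((lS C : Matrix (Fin n ⊕ Fin n) (Fin n ⊕ Fin n) F) *ᵥ v) =
          (C : Matrix (Fin n) (Fin n) F) *ᵥ lpart v + rpart v := by
        funext k; simp [lpart, rpart, lS_coe, Matrix.fromBlocks_mulVec, Function.comp_def]
      rw [hl, hr]
      simp only [φ, phiC, ← mul_assoc, ← AddChar.map_add_eq_mul]
      congr 2
      have hsym : lpart v ⬝ᵥ ((C : Matrix (Fin n) (Fin n) F) *ᵥ t) =
          ((C : Matrix (Fin n) (Fin n) F) *ᵥ lpart v) ⬝ᵥ t := by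
        rw [Matrix.dotProduct_mulVec, ← Matrix.mulVec_transpose, symSub_transpose]
      simp only [Matrix.mulVec_add, dotProduct_add, add_dotProduct,
        dotProduct_comm t ((C : Matrix (Fin n) (Fin n) F) *ᵥ lpart v), hsym]
      field_simp
      ring
    · let idx := Fintype.equivFin (Fin n → F)
      set R : Finset (Fin n → F) := Finset.univ.filter fun t => idx t < idx (-t)
      set R0 : Finset (Fin n → F) := Finset.univ.filter fun t => idx t ≤ idx (-t)
      have hTf : ∀ f t, ((T : (FunOp F n)ˣ) : FunOp F n) f t = φ t * f t := fun f t => rfl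
      have hneg : ∀ t : Fin n → F, idx t = idx (-t) → t = 0 := by
        intro t ht
        have := idx.injective ht
        funext k
        have hk := congrFun this k
        rw [Pi.neg_apply] at hk
        exact (mul_eq_zero.1 (show (2 : F) * t k = 0 by linear_combination hk)).resolve_left h2
      rw [det_restrict_diag (Or.inl rfl) h2 R0 ?_ ?_ φ T hTf, det_restrict_diag (Or.inr rfl) h2 R ?_ ?_ φ T hTf]
      · have : R0 = insert 0 R := by
          ext t
          simp only [R0, R, Finset.mem_filter, Finset.mem_univ, true_and, Finset.mem_insert]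
          constructor
          · intro h
            rcases lt_or_eq_of_le h with h | h
            · exact Or.inr h
            · exact Or.inl (hneg t h)
          · rintro (rfl | h)
            · rw [neg_zero]
            · exact h.le
        rw [this, Finset.prod_insert (by simp [R])]
        simp [φ, phiC]
      · intro t
        simp only [R, Finset.mem_filter, Finset.mem_univ, true_and, neg_neg]
        rcases lt_trichotomy (idx t) (idx (-t)) with h | h | h
        · exact Or.inl h
        · exact Or.inr (Or.inr ⟨hneg t h, trivial⟩)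
        · exact Or.inr (Or.inl h)
      · intro t h h'
        simp only [R, Finset.mem_filter, Finset.mem_univ, true_and, neg_neg] at h h'
        exact absurd h' h.asymm
      · intro t
        simp only [R0, Finset.mem_filter, Finset.mem_univ, true_and, neg_neg]
        rcases le_total (idx t) (idx (-t)) with h | h
        · exact Or.inl h
        · exact Or.inr (Or.inl h)
      · intro t h h'
        simp only [R0, Finset.mem_filter, Finset.mem_univ, true_and, neg_neg] at h h'
        exact ⟨hneg t (le_antisymm h h'), rfl⟩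
  have := (existsUnique_isLift (ψ.mulShift a) (mulShift_prim hψ ha) h2 (lS C)).unique
    (weil_spec (ψ.mulShift a) (mulShift_prim hψ ha) h2 (lS C)) hlift
  rw [weilOp, this]
  rfl

include hψ h2 ha in
/-- The weights of a Weil representation. -/
theorem wRep_weight {s : ℂ} {W : symSub n F} {v : parityPart F n s} (hv0 : v ≠ 0)
    (hv : v ∈ wt (wRep hψ h2 ha s) ψ W) : ∃ t : Fin n → F, W = rk1 (a * 2⁻¹) t := by
  set J' := SymplecticGroup.symJ (Fin n) F
  set u := wRep hψ h2 ha s J'⁻¹ v
  have hu0 : u ≠ 0 := fun h => hv0 (by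
    have := congrArg (wRep hψ h2 ha s J') h
    rwa [← Module.End.mul_apply, ← map_mul, mul_inv_cancel, map_one, Module.End.one_apply, map_zero] at this)
  obtain ⟨t, ht⟩ := Function.ne_iff.1 (fun h => hu0 (Subtype.ext h) :
    (u : (Fin n → F) → ℂ) ≠ 0)
  refine ⟨t, eq_of_pairing_eq h2 fun S => eq_of_psi_eq hψ fun c => ?_⟩
  rw [← pairing_smulSym, ← pairing_smulSym]
  set T := smulSym c S
  have h1 : lS (-T) * J'⁻¹ = J'⁻¹ * qS T := by
    rw [eq_inv_mul_iff_mul_eq, ← mul_assoc, ← qS_mul_symJ, mul_inv_cancel_right]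
  have h3 : wRep hψ h2 ha s (lS (-T)) u = ψ (pairing W T) • u := by
    rw [← Module.End.mul_apply, ← map_mul, h1, map_mul, Module.End.mul_apply, hv T, map_smul]
  have h4 := congrFun (congrArg Subtype.val h3) t
  rw [wRep_apply, weilOp_lS hψ h2 ha, Submodule.coe_smul, Pi.smul_apply, smul_eq_mul] at h4
  have h5 := mul_right_cancel₀ ht h4
  rw [← h5, phiC, AddChar.mulShift_apply]
  congr 1
  rw [pairing_apply]
  simp [rk1, Matrix.neg_mulVec, Matrix.vecMulVec_mul, Matrix.dotProduct_mulVec, dotProduct_comm]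
  ring

include hψ h2 ha in
theorem wRep_lowRank (s : ℂ) : LowRank (wRep (n := n) hψ h2 ha s) ψ := fun _ _ hv0 hv =>
  ⟨_, wRep_weight hψ h2 ha hv0 hv⟩

include hψ h2 ha in
theorem wRep_exists_weight {s : ℂ} (hs : s = 1 ∨ s = -1) (j : Fin n) :
    ∃ v : parityPart F n s, v ≠ 0 ∧ v ∈ wt (wRep hψ h2 ha s) ψ (rk1 (a * 2⁻¹) (Pi.single j 1)) := by
  classical
  set e : Fin n → F := Pi.single j 1
  have he : -e ≠ e := fun h => h2 (by
    have h1 := congrFun h j
    simp only [e, Pi.neg_apply, Pi.single_eq_same] at h1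
    linear_combination -h1)
  have hs2 : s * s = 1 := by rcases hs with rfl | rfl <;> norm_num
  let f : (Fin n → F) → ℂ := fun t => if t = e then 1 else if t = -e then s else 0
  have hf : f ∈ parityPart F n s := mem_parityPart.2 (funext fun t => by
    rw [jop_apply, Pi.smul_apply, smul_eq_mul]
    by_cases h : t = e
    · subst h; simp [f, he]
    · by_cases h' : t = -e
      · subst h'; simp [f, he, hs2]
      · simp [f, h, h', neg_eq_iff_eq_neg])
  set u : parityPart F n s := ⟨f, hf⟩
  set J' := SymplecticGroup.symJ (Fin n) F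
  refine ⟨wRep hψ h2 ha s J' u, fun h => ?_, fun S => ?_⟩
  · have := congrArg (wRep hψ h2 ha s J'⁻¹) h
    rw [← Module.End.mul_apply, ← map_mul, inv_mul_cancel, map_one, Module.End.one_apply, map_zero] at this
    simpa [u, f] using congrFun (congrArg Subtype.val this) e
  · have h1 : wRep hψ h2 ha s (lS (-S)) u = ψ (pairing (rk1 (a * 2⁻¹) e) S) • u := by
      apply Subtype.ext
      funext t
      rw [wRep_apply, weilOp_lS hψ h2 ha, Submodule.coe_smul, Pi.smul_apply, smul_eq_mul]
      by_cases hft : f t = 0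
      · simp [u, hft]
      have hq : t ⬝ᵥ ((S : Matrix (Fin n) (Fin n) F) *ᵥ t) = e ⬝ᵥ ((S : Matrix (Fin n) (Fin n) F) *ᵥ e) := by
        by_cases h : t = e
        · rw [h]
        · by_cases h' : t = -e
          · simp [h', Matrix.mulVec_neg]
          · exact absurd (by simp [f, h, h']) hft
      congr 1
      rw [phiC, AddChar.mulShift_apply]
      congr 1
      rw [pairing_apply]
      simp [rk1, Matrix.neg_mulVec, Matrix.vecMulVec_mul, hq]
      rw [Matrix.dotProduct_mulVec, dotProduct_comm]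
      ring
    rw [← Module.End.mul_apply, ← map_mul, qS_mul_symJ, map_mul, Module.End.mul_apply, h1, map_smul]

include hψ h2 ha in
theorem wRep_irreducible (hn : 1 ≤ n) {s : ℂ} (hs : s = 1 ∨ s = -1) :
    (wRep (n := n) hψ h2 ha s).IsIrreducible := by
  classical
  have hss : s * s = 1 := by rcases hs with rfl | rfl <;> norm_num
  have hs' : -s = 1 ∨ -s = -1 := by rcases hs with rfl | rfl <;> norm_num
  have hnz : ∀ r : ℂ, (r = 1 ∨ r = -1) → ∃ y : parityPart F n r, y ≠ 0 := fun r hr =>
    (wRep_exists_weight (n := n) hψ h2 ha hr ⟨0, hn⟩).imp fun _ h => h.1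
  obtain ⟨x₀, hx₀⟩ := hnz s hs
  set ρ := wRep (n := n) hψ h2 ha s
  have : Nontrivial (Subrepresentation ρ) := by
    refine ⟨⟨⊥, ⊤, fun h => ?_⟩⟩
    have h' : (⊥ : Submodule ℂ (parityPart F n s)) = ⊤ := congrArg Subrepresentation.toSubmodule h
    exact hx₀ ((Submodule.mem_bot ℂ).1 (h' ▸ Submodule.mem_top : x₀ ∈ (⊥ : Submodule ℂ (parityPart F n s))))
  refine ⟨fun U => or_iff_not_imp_left.2 fun hU => ?_⟩
  let T : symplecticGroup (Fin n) F → FunOp F n := fun g => weilOp (ψ.mulShift a) (mulShift_prim hψ ha) h2 g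
  have hTmul : ∀ g h, T (g * h) = T g * T h := fun g h => by simp [T, weilOp]
  have hT1 : T 1 = 1 := by simp [T, weilOp]
  let ι : parityPart F n s →ₗ[ℂ] ((Fin n → F) → ℂ) := (parityPart F n s).subtype
  let U' := U.toSubmodule.map ι
  have hTU : ∀ g, ∀ x ∈ U', T g x ∈ U' := by
    intro g x hx
    obtain ⟨u, hu, rfl⟩ := Submodule.mem_map.1 hx
    exact Submodule.mem_map.2 ⟨ρ g u, U.apply_mem_toSubmodule g hu, rfl⟩
  obtain ⟨p, hp⟩ := U'.subtype.exists_leftInverse_of_injective (Submodule.ker_subtype _)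
  let π : FunOp F n := U'.subtype ∘ₗ p
  have hπU : ∀ x, π x ∈ U' := fun x => (p x).2
  have hπfix : ∀ x ∈ U', π x = x := fun x hx => congrArg Subtype.val (LinearMap.congr_fun hp ⟨x, hx⟩)
  let m : ℂ := (Fintype.card (symplecticGroup (Fin n) F) : ℂ)
  let A : FunOp F n := m⁻¹ • ∑ g, T g * π * T g⁻¹
  have hA : ∀ h, A * T h = T h * A := by
    intro h
    simp only [A, smul_mul_assoc, mul_smul_comm, Finset.sum_mul, Finset.mul_sum]
    congr 1
    refine Fintype.sum_equiv (Equiv.mulLeft h⁻¹) _ _ fun g => ?_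
    simp only [Equiv.coe_mulLeft, _root_.mul_inv_rev, inv_inv, ← mul_assoc, ← hTmul, mul_inv_cancel, hT1, one_mul]
    simp only [mul_assoc, ← hTmul]
  obtain ⟨α, β, hAB⟩ := exists_eq_of_commute (ψ.mulShift a) (mulShift_prim hψ ha) h2 hn A hA
  have hAU : ∀ x, A x ∈ U' := fun x => by
    simp only [A, LinearMap.smul_apply, LinearMap.sum_apply, Module.End.mul_apply]
    exact U'.smul_mem _ (U'.sum_mem fun g _ => hTU g _ (hπU _))
  have hAfix : ∀ x ∈ U', A x = x := by
    intro x hx
    simp only [A, LinearMap.smul_apply, LinearMap.sum_apply, Module.End.mul_apply]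
    have : ∀ g, T g (π (T g⁻¹ x)) = x := fun g => by
      rw [hπfix _ (hTU _ _ hx), ← Module.End.mul_apply, ← hTmul, mul_inv_cancel, hT1, Module.End.one_apply]
    simp only [this, Finset.sum_const, Finset.card_univ, ← Nat.cast_smul_eq_nsmul ℂ, smul_smul]
    rw [inv_mul_cancel₀ (Nat.cast_ne_zero.2 Fintype.card_ne_zero), one_smul]
  have hjU : ∀ x ∈ U', jop F n x = s • x := by
    intro x hx
    obtain ⟨u, -, rfl⟩ := Submodule.mem_map.1 hx
    exact mem_parityPart.1 u.2
  obtain ⟨u, hu, hu0⟩ : ∃ u ∈ U.toSubmodule, u ≠ 0 := by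
    by_contra hc
    push Not at hc
    exact hU (Subrepresentation.toSubmodule_injective ((Submodule.eq_bot_iff _).2 hc))
  have hab : α + β * s = 1 := by
    have h := hAfix _ (Submodule.mem_map_of_mem hu : ι u ∈ U')
    rw [hAB] at h
    simp only [LinearMap.add_apply, LinearMap.smul_apply, Module.End.one_apply,
      hjU _ (Submodule.mem_map_of_mem hu), smul_smul, ← add_smul] at h
    exact smul_left_injective ℂ (fun e => hu0 (Subtype.ext e)) (h.trans (one_smul ℂ _).symm)
  have hab' : α - β * s = 0 := by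
    obtain ⟨y, hy0⟩ := hnz (-s) hs'
    have hy := mem_parityPart.1 y.2
    have h := hjU _ (hAU y)
    rw [hAB] at h
    simp only [LinearMap.add_apply, LinearMap.smul_apply, Module.End.one_apply, map_add, map_smul, hy,
      smul_smul, ← add_smul] at h
    have hy0' : (y : (Fin n → F) → ℂ) ≠ 0 := fun e => hy0 (Subtype.ext e)
    have h' := smul_left_injective ℂ hy0' h
    linear_combination (-1 / 2 * s) * h' + (-α + β * s) * hss
  refine Subrepresentation.toSubmodule_injective (Submodule.eq_top_iff'.2 fun z => ?_)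
  have h := hAU (ι z)
  rw [hAB] at h
  simp only [LinearMap.add_apply, LinearMap.smul_apply, Module.End.one_apply,
    show jop F n (ι z) = s • ι z from mem_parityPart.1 z.2, smul_smul, ← add_smul, hab, one_smul] at h
  obtain ⟨w, hw, hwz⟩ := Submodule.mem_map.1 h
  exact (Subtype.ext hwz : w = z) ▸ hw

end Weil

end CfsgLib.SpWeilChars
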