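import Cfsg.Agent.Classical.Symp.Transvection

/-!
Elements of `Sp_2n(F)`: the Siegel radical, its Levi complement, the coordinate copies of `SL_2`,
and generation by the Siegel parabolic and one Weyl element per coordinate.
-/

set_option autoImplicit false

namespace CfsgLib.SpWeilChars

open Matrix

variable {F : Type*} [Field F] {n : ℕ}

/-- Symmetric matrices. -/
def symSub (n : ℕ) (F : Type*) [Field F] : AddSubgroup (Matrix (Fin n) (Fin n) F) where
  carrier := {S | Sᵀ = S}
  zero_mem' := transpose_zero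
  add_mem' {a b} ha hb := by
    simp only [Set.mem_ofPred_eq, transpose_add] at *
    rw [ha, hb]
  neg_mem' {a} ha := by
    simp only [Set.mem_ofPred_eq, transpose_neg] at *
    rw [ha]

theorem mem_symSub {S : Matrix (Fin n) (Fin n) F} : S ∈ symSub n F ↔ Sᵀ = S := Iff.rfl

theorem symSub_transpose (S : symSub n F) : (S : Matrix (Fin n) (Fin n) F)ᵀ = S := S.2

/-- The diagonal matrix unit as a symmetric matrix. -/
def eDiag (i : Fin n) (c : F) : symSub n F :=
  ⟨Matrix.single i i c, by rw [mem_symSub, Matrix.transpose_single]⟩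

/-- The off-diagonal symmetric matrix unit. -/
def eOff (i j : Fin n) (b : F) : symSub n F :=
  ⟨Matrix.single i j b + Matrix.single j i b, by
    rw [mem_symSub, transpose_add, Matrix.transpose_single, Matrix.transpose_single, add_comm]⟩

/-- Congruence on symmetric matrices. -/
def congrSym (A : Matrix (Fin n) (Fin n) F) (S : symSub n F) : symSub n F :=
  ⟨Aᵀ * S * A, by
    rw [mem_symSub, transpose_mul, transpose_mul, transpose_transpose, symSub_transpose, Matrix.mul_assoc]⟩

/-- The Siegel radical. -/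
def qS (S : symSub n F) : symplecticGroup (Fin n) F :=
  ⟨fromBlocks 1 (S : Matrix (Fin n) (Fin n) F) 0 1, by
    rw [SymplecticGroup.mem_iff]
    simp [J, fromBlocks_multiply, fromBlocks_transpose, symSub_transpose]⟩

theorem qS_coe (S : symSub n F) :
    (qS S : Matrix (Fin n ⊕ Fin n) (Fin n ⊕ Fin n) F) = fromBlocks 1 (S : Matrix (Fin n) (Fin n) F) 0 1 := rfl

theorem qS_add (S T : symSub n F) : qS (S + T) = qS S * qS T := by
  apply Subtype.ext
  simp [qS_coe, fromBlocks_multiply, add_comm]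

theorem qS_zero : qS (0 : symSub n F) = 1 := by
  apply Subtype.ext
  simp [qS_coe]

theorem qS_comm (S T : symSub n F) : qS S * qS T = qS T * qS S := by
  rw [← qS_add, ← qS_add, add_comm]

/-- The Levi complement. -/
def levi : GL (Fin n) F →* symplecticGroup (Fin n) F where
  toFun A := ⟨fromBlocks ((A⁻¹ : GL (Fin n) F) : Matrix (Fin n) (Fin n) F)ᵀ 0 0
      (A : Matrix (Fin n) (Fin n) F), by
    rw [SymplecticGroup.mem_iff]
    have h1 : (A : Matrix (Fin n) (Fin n) F) * ((A⁻¹ : GL (Fin n) F) : Matrix (Fin n) (Fin n) F) = 1 := by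
      rw [← Units.val_mul, mul_inv_cancel, Units.val_one]
    have h2 : ((A⁻¹ : GL (Fin n) F) : Matrix (Fin n) (Fin n) F)ᵀ * (A : Matrix (Fin n) (Fin n) F)ᵀ = 1 := by
      rw [← transpose_mul, h1, transpose_one]
    simp only [J, fromBlocks_multiply, fromBlocks_transpose, transpose_transpose, transpose_zero,
      Matrix.mul_zero, Matrix.zero_mul, Matrix.mul_one, add_zero, zero_add, Matrix.mul_neg,
      Matrix.neg_mul, neg_zero, h1, h2]⟩
  map_one' := by
    apply Subtype.ext
    simp
  map_mul' A B := by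
    apply Subtype.ext
    simp [fromBlocks_multiply, transpose_mul]

theorem levi_coe (A : GL (Fin n) F) :
    (levi A : Matrix (Fin n ⊕ Fin n) (Fin n ⊕ Fin n) F) =
      fromBlocks ((A⁻¹ : GL (Fin n) F) : Matrix (Fin n) (Fin n) F)ᵀ 0 0 (A : Matrix (Fin n) (Fin n) F) := rfl

theorem qS_mul_levi (A : GL (Fin n) F) (S : symSub n F) :
    qS S * levi A = levi A * qS (congrSym (A : Matrix (Fin n) (Fin n) F) S) := by
  apply Subtype.ext
  have h2 : ((A⁻¹ : GL (Fin n) F) : Matrix (Fin n) (Fin n) F)ᵀ * (A : Matrix (Fin n) (Fin n) F)ᵀ = 1 := by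
    rw [← transpose_mul, ← Units.val_mul, mul_inv_cancel, Units.val_one, transpose_one]
  simp [qS_coe, levi_coe, congrSym, fromBlocks_multiply, ← Matrix.mul_assoc, h2, -Matrix.coe_units_inv]

/-- The matrix unit `E_ii`. -/
def eMat (F : Type*) [Field F] (i : Fin n) : Matrix (Fin n) (Fin n) F := Matrix.single i i 1

theorem eMat_mul_eMat (i : Fin n) : eMat F i * eMat F i = eMat F i := by
  simp [eMat]

theorem eMat_transpose (i : Fin n) : (eMat F i)ᵀ = eMat F i := Matrix.transpose_single _ _ _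

/-- A matrix of `SL_2` in coordinate `i`. -/
def slMat (i : Fin n) (a b c d : F) : Matrix (Fin n ⊕ Fin n) (Fin n ⊕ Fin n) F :=
  fromBlocks (1 + (a - 1) • eMat F i) (b • eMat F i) (c • eMat F i) (1 + (d - 1) • eMat F i)

theorem slMat_mul (i : Fin n) (a b c d a' b' c' d' : F) :
    slMat i a b c d * slMat i a' b' c' d' =
      slMat i (a * a' + b * c') (a * b' + b * d') (c * a' + d * c') (c * b' + d * d') := by
  simp only [slMat, fromBlocks_multiply, add_mul, mul_add, Matrix.one_mul, Matrix.mul_one,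
    Matrix.smul_mul, Matrix.mul_smul, eMat_mul_eMat]
  rw [fromBlocks_inj]
  refine ⟨?_, ?_, ?_, ?_⟩ <;> module

theorem slMat_one (i : Fin n) : slMat i (1 : F) 0 0 1 = 1 := by simp [slMat]

theorem slMat_mem (i : Fin n) {a b c d : F} (h : a * d - b * c = 1) :
    slMat i a b c d ∈ symplecticGroup (Fin n) F := by
  rw [SymplecticGroup.mem_iff]
  simp only [slMat, J, fromBlocks_multiply, fromBlocks_transpose, transpose_add, transpose_smul,
    transpose_one, eMat_transpose, add_mul, mul_add, Matrix.one_mul, Matrix.mul_one, Matrix.smul_mul,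
    Matrix.mul_smul, eMat_mul_eMat, Matrix.mul_zero, Matrix.zero_mul, Matrix.mul_neg, Matrix.neg_mul,
    add_zero, zero_add]
  rw [fromBlocks_inj]
  refine ⟨?_, ?_, ?_, ?_⟩ <;> (match_scalars <;> grind)

/-- An element of the coordinate copy of `SL_2`. -/
def sl (i : Fin n) (a b c d : F) (h : a * d - b * c = 1) : symplecticGroup (Fin n) F :=
  ⟨slMat i a b c d, slMat_mem i h⟩

/-- The Weyl element of coordinate `i`. -/
def wEl (F : Type*) [Field F] (i : Fin n) : symplecticGroup (Fin n) F :=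
  sl i 0 1 (-1) 0 (by ring)

theorem sl_coe (i : Fin n) (a b c d : F) (h : a * d - b * c = 1) :
    (sl i a b c d h : Matrix (Fin n ⊕ Fin n) (Fin n ⊕ Fin n) F) = slMat i a b c d := rfl

theorem wEl_coe (i : Fin n) :
    (wEl F i : Matrix (Fin n ⊕ Fin n) (Fin n ⊕ Fin n) F) = slMat i 0 1 (-1) 0 := rfl

theorem qS_eDiag_coe (i : Fin n) (s : F) :
    (qS (eDiag i s) : Matrix (Fin n ⊕ Fin n) (Fin n ⊕ Fin n) F) = slMat i 1 s 0 1 := by
  simp [qS_coe, slMat, eDiag, eMat]

/-- Scaling one coordinate. -/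
def dMat (i : Fin n) (c : F) : Matrix (Fin n) (Fin n) F := 1 + (c - 1) • eMat F i

theorem dMat_mul (i : Fin n) (c d : F) : dMat i c * dMat i d = dMat i (c * d) := by
  simp only [dMat, add_mul, mul_add, Matrix.one_mul, Matrix.mul_one, Matrix.smul_mul, Matrix.mul_smul,
    eMat_mul_eMat]
  module

/-- Scaling one coordinate, as a unit. -/
def dGL (i : Fin n) (c : Fˣ) : GL (Fin n) F where
  val := dMat i (c : F)
  inv := dMat i ((c⁻¹ : Fˣ) : F)
  val_inv := by rw [dMat_mul, ← Units.val_mul, mul_inv_cancel, Units.val_one]; simp [dMat]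
  inv_val := by rw [dMat_mul, ← Units.val_mul, inv_mul_cancel, Units.val_one]; simp [dMat]

theorem dGL_coe (i : Fin n) (c : Fˣ) :
    (dGL i c : Matrix (Fin n) (Fin n) F) = dMat i (c : F) := rfl

theorem levi_dGL_coe (i : Fin n) (c : Fˣ) :
    (levi (dGL i c) : Matrix (Fin n ⊕ Fin n) (Fin n ⊕ Fin n) F) =
      slMat i ((c⁻¹ : Fˣ) : F) 0 0 (c : F) := by
  rw [levi_coe]
  have hinv : (((dGL i c)⁻¹ : GL (Fin n) F) : Matrix (Fin n) (Fin n) F) = dMat i ((c⁻¹ : Fˣ) : F) := rfl
  simp [hinv, dGL_coe, dMat, slMat, eMat_transpose]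

theorem wEl_sq (i : Fin n) : wEl F i * wEl F i = levi (dGL i (-1)) := by
  apply Subtype.ext
  rw [levi_dGL_coe]
  simp [wEl_coe, slMat_mul]

theorem wEl_mul_levi_dGL (i : Fin n) (c : Fˣ) :
    wEl F i * levi (dGL i c) = levi (dGL i c⁻¹) * wEl F i := by
  apply Subtype.ext
  simp [wEl_coe, levi_dGL_coe, slMat_mul]

/-- The braid relation. -/
theorem wEl_braid (i : Fin n) (s : Fˣ) :
    wEl F i * qS (eDiag i (s : F)) * wEl F i =
      qS (eDiag i (-((s⁻¹ : Fˣ) : F))) * wEl F i * levi (dGL i (-s⁻¹)) *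
        qS (eDiag i (-((s⁻¹ : Fˣ) : F))) := by
  apply Subtype.ext
  have hs : (s : F) ≠ 0 := s.ne_zero
  simp only [Subgroup.coe_mul, Submonoid.coe_mul, wEl_coe, levi_dGL_coe, qS_eDiag_coe, slMat_mul,
    Units.val_neg, Units.val_inv_eq_inv_val, inv_neg, inv_inv]
  congr 1 <;> field_simp <;> ring

/-- An elementary transvection. -/
def tGL (i j : Fin n) (hij : i ≠ j) (b : F) : GL (Fin n) F where
  val := Matrix.transvection i j b
  inv := Matrix.transvection i j (-b)
  val_inv := by rw [Matrix.transvection_mul_transvection_same i j hij, add_neg_cancel, Matrix.transvection_zero]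
  inv_val := by rw [Matrix.transvection_mul_transvection_same i j hij, neg_add_cancel, Matrix.transvection_zero]

theorem tGL_coe (i j : Fin n) (hij : i ≠ j) (b : F) :
    (tGL i j hij b : Matrix (Fin n) (Fin n) F) = Matrix.transvection i j b := rfl

theorem levi_tGL_coe (i j : Fin n) (hij : i ≠ j) (b : F) :
    (levi (tGL i j hij b) : Matrix (Fin n ⊕ Fin n) (Fin n ⊕ Fin n) F) =
      fromBlocks (1 - Matrix.single j i b) 0 0 (1 + Matrix.single i j b) := by
  rw [levi_coe]
  have hinv : (((tGL i j hij b)⁻¹ : GL (Fin n) F) : Matrix (Fin n) (Fin n) F) =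
      Matrix.transvection i j (-b) := rfl
  rw [hinv, tGL_coe]
  simp [Matrix.transvection, sub_eq_add_neg, Matrix.single_neg]

/-- `w_i` turns the off-diagonal radical element into a Levi transvection. -/
theorem wEl_mul_qS_eOff (i j : Fin n) (hij : i ≠ j) (b : F) :
    wEl F i * qS (eOff i j b) = levi (tGL i j hij (-b)) * wEl F i := by
  apply Subtype.ext
  have hji : j ≠ i := Ne.symm hij
  simp [wEl_coe, slMat, qS_coe, levi_tGL_coe, eOff, eMat, fromBlocks_multiply, mul_add, add_mul,
    hij, hji, sub_eq_add_neg, Matrix.single_neg, neg_smul, smul_eq_mul, neg_one_mul, Matrix.smul_single]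
  repeat' apply And.intro
  all_goals
    (ext x y; simp [Matrix.single_apply, Matrix.one_apply]; split_ifs <;> simp_all)

/-- `w_i` times a transvection into coordinate `i`. -/
theorem wEl_mul_levi_tGL (i j : Fin n) (hij : i ≠ j) (b : F) :
    wEl F i * levi (tGL i j hij b) = qS (eOff i j b) * wEl F i := by
  apply Subtype.ext
  have hji : j ≠ i := Ne.symm hij
  simp [wEl_coe, slMat, qS_coe, levi_tGL_coe, eOff, eMat, fromBlocks_multiply, mul_add, add_mul,
    hij, hji, sub_eq_add_neg, Matrix.single_neg, neg_smul, smul_eq_mul, neg_one_mul, Matrix.smul_single]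
  repeat' apply And.intro
  all_goals
    (ext x y; simp [Matrix.single_apply, Matrix.one_apply]; split_ifs <;> simp_all)

/-- Matrices with trivial `i`-th row and column. -/
def FixCoord (i : Fin n) (A : Matrix (Fin n) (Fin n) F) : Prop :=
  eMat F i * A = eMat F i ∧ A * eMat F i = eMat F i

theorem wEl_comm_levi {i : Fin n} {A : GL (Fin n) F} (h : FixCoord i (A : Matrix (Fin n) (Fin n) F)) :
    wEl F i * levi A = levi A * wEl F i := by
  apply Subtype.ext
  obtain ⟨h1, h2⟩ := h
  have h3 : eMat F i * ((A⁻¹ : GL (Fin n) F) : Matrix (Fin n) (Fin n) F) = eMat F i := by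
    nth_rewrite 1 [← h1]
    rw [Matrix.mul_assoc, ← Units.val_mul, mul_inv_cancel, Units.val_one, Matrix.mul_one]
  have h4 : ((A⁻¹ : GL (Fin n) F) : Matrix (Fin n) (Fin n) F) * eMat F i = eMat F i := by
    nth_rewrite 1 [← h2]
    rw [← Matrix.mul_assoc, ← Units.val_mul, inv_mul_cancel, Units.val_one, Matrix.one_mul]
  have h5 : eMat F i * ((A⁻¹ : GL (Fin n) F) : Matrix (Fin n) (Fin n) F)ᵀ = eMat F i := by
    have := congrArg Matrix.transpose h4
    rwa [transpose_mul, eMat_transpose] at this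
  have h6 : ((A⁻¹ : GL (Fin n) F) : Matrix (Fin n) (Fin n) F)ᵀ * eMat F i = eMat F i := by
    have := congrArg Matrix.transpose h3
    rwa [transpose_mul, eMat_transpose] at this
  simp [wEl_coe, slMat, levi_coe, fromBlocks_multiply, mul_add, add_mul, h1, h2, h5, h6, -Matrix.coe_units_inv]

/-- The Siegel radical elements away from coordinate `i` commute with `w_i`. -/
theorem wEl_comm_qS {i : Fin n} {S : symSub n F} (h : eMat F i * (S : Matrix (Fin n) (Fin n) F) = 0) :
    wEl F i * qS S = qS S * wEl F i := by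
  apply Subtype.ext
  have h' : (S : Matrix (Fin n) (Fin n) F) * eMat F i = 0 := by
    have := congrArg Matrix.transpose h
    rwa [transpose_mul, eMat_transpose, symSub_transpose, transpose_zero] at this
  simp [wEl_coe, slMat, qS_coe, fromBlocks_multiply, mul_add, add_mul, h, h']
  abel

theorem wEl_comm_wEl {i j : Fin n} (hij : i ≠ j) : wEl F i * wEl F j = wEl F j * wEl F i := by
  apply Subtype.ext
  have h1 : eMat F i * eMat F j = 0 := by simp [eMat, hij]
  have h2 : eMat F j * eMat F i = 0 := by simp [eMat, Ne.symm hij]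
  simp [wEl_coe, slMat, fromBlocks_multiply, mul_add, add_mul, h1, h2]
  refine ⟨?_, ?_, ?_, ?_⟩ <;> abel

theorem one_add_vecMulVec_mul (k : Fin n) (u : Fin n → F) (c : F) (h : 1 + c + c * u k = 0) :
    (1 + Matrix.vecMulVec u (Pi.single k 1)) * (1 + c • Matrix.vecMulVec u (Pi.single k 1)) = 1 := by
  simp only [add_mul, mul_add, Matrix.one_mul, Matrix.mul_one, Matrix.mul_smul, Matrix.vecMulVec_mul_vecMulVec,
    single_dotProduct, one_mul, Matrix.vecMulVec_smul, smul_smul]
  rw [add_assoc, add_eq_left]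
  match_scalars
  linear_combination h

/-- A unit sending a basis vector to a prescribed vector, fixing a further coordinate. -/
theorem exists_gl_fixCoord {i j : Fin n} (hji : j ≠ i) {x : Fin n → F} (hxi : x i = 0) (hx : x ≠ 0) :
    ∃ A : GL (Fin n) F, FixCoord i (A : Matrix (Fin n) (Fin n) F) ∧
      (A : Matrix (Fin n) (Fin n) F) *ᵥ Pi.single j 1 = x := by
  have key : ∀ y : Fin n → F, y i = 0 → y j ≠ 0 → ∃ A : GL (Fin n) F,
      FixCoord i (A : Matrix (Fin n) (Fin n) F) ∧ (A : Matrix (Fin n) (Fin n) F) *ᵥ Pi.single j 1 = y := by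
    intro y hyi hyj
    set u : Fin n → F := y - Pi.single j 1
    have hu : 1 + (-(y j)⁻¹) + (-(y j)⁻¹) * u j = 0 := by
      simp [u]
      field_simp
      ring
    have h1 := one_add_vecMulVec_mul j u _ hu
    refine ⟨⟨_, _, h1, mul_eq_one_comm.1 h1⟩, ⟨?_, ?_⟩, ?_⟩
    · have hui : u i = 0 := by simp [u, hyi, Pi.single_apply, Ne.symm hji]
      simp [eMat, mul_add, Matrix.mul_vecMulVec, Matrix.single_mulVec, hui]
    · simp [eMat, add_mul, Matrix.vecMulVec_mul]
      right
      funext b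
      simp [Matrix.row, Matrix.single_apply, Ne.symm hji]
    · funext a
      simp [u, Matrix.one_apply, Matrix.vecMulVec_apply, Pi.single_apply]
  by_cases hxj : x j = 0
  · obtain ⟨k, hk⟩ := Function.ne_iff.1 hx
    have hkj : j ≠ k := fun e => hk (e ▸ hxj)
    have hki : k ≠ i := fun e => hk (e ▸ hxi)
    set T := tGL j k hkj (1 : F)
    have hT : FixCoord i (T : Matrix (Fin n) (Fin n) F) := by
      constructor <;>
        simp [eMat, T, tGL_coe, Matrix.transvection, add_mul, mul_add, hji, hki, Ne.symm hji, Ne.symm hki]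
    obtain ⟨A, ⟨hA1, hA2⟩, hA3⟩ := key ((T : Matrix (Fin n) (Fin n) F) *ᵥ x)
      (by simp [T, tGL_coe, Matrix.transvection, add_mulVec, Matrix.single_mulVec, hxi, Ne.symm hji])
      (by simpa [T, tGL_coe, Matrix.transvection, add_mulVec, Matrix.single_mulVec, hxj] using hk)
    have h3 : ((T⁻¹ : GL (Fin n) F) : Matrix (Fin n) (Fin n) F) = Matrix.transvection j k (-1) := rfl
    refine ⟨T⁻¹ * A, ⟨?_, ?_⟩, ?_⟩
    · rw [Units.val_mul, ← Matrix.mul_assoc]
      nth_rewrite 1 [← hT.1]
      rw [Matrix.mul_assoc (eMat F i), ← Units.val_mul, mul_inv_cancel, Units.val_one, Matrix.mul_one, hA1]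
    · rw [Units.val_mul, Matrix.mul_assoc, hA2]
      nth_rewrite 1 [← hT.2]
      rw [← Matrix.mul_assoc, ← Units.val_mul, inv_mul_cancel, Units.val_one, Matrix.one_mul]
    · rw [Units.val_mul, ← Matrix.mulVec_mulVec, hA3, Matrix.mulVec_mulVec, ← Units.val_mul, inv_mul_cancel,
        Units.val_one, Matrix.one_mulVec]
  · exact key x hxi hxj

/-- The general linear group is transitive on nonzero vectors. -/
theorem exists_gl_mulVec (hn : 2 ≤ n) (j : Fin n) {x : Fin n → F} (hx : x ≠ 0) :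
    ∃ A : GL (Fin n) F, (A : Matrix (Fin n) (Fin n) F) *ᵥ Pi.single j 1 = x := by
  obtain ⟨i, hij⟩ : ∃ i : Fin n, i ≠ j := Fintype.exists_ne_of_one_lt_card (by simp; omega) j
  by_cases hxj : x j = 0
  · obtain ⟨k, hk⟩ := Function.ne_iff.1 hx
    have hjk : j ≠ k := fun e => hk (e ▸ hxj)
    set T := tGL j k hjk (1 : F)
    set y := (T : Matrix (Fin n) (Fin n) F) *ᵥ x with hy
    have hyj : y j ≠ 0 := by
      simpa [hy, T, tGL_coe, Matrix.transvection, add_mulVec, Matrix.single_mulVec, hxj] using hk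
    have hu : 1 + (-(y j)⁻¹) + (-(y j)⁻¹) * (y - Pi.single j 1 : Fin n → F) j = 0 := by
      simp; field_simp; ring
    have h1 := one_add_vecMulVec_mul j (y - Pi.single j 1) _ hu
    refine ⟨T⁻¹ * ⟨_, _, h1, mul_eq_one_comm.1 h1⟩, ?_⟩
    rw [Units.val_mul, ← Matrix.mulVec_mulVec]
    have : ((1 : Matrix (Fin n) (Fin n) F) + Matrix.vecMulVec (y - Pi.single j 1) (Pi.single j 1)) *ᵥ
        Pi.single j 1 = y := by
      funext a; simp [Matrix.one_apply, Matrix.vecMulVec_apply, Pi.single_apply]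
    rw [this, hy, Matrix.mulVec_mulVec, ← Units.val_mul, inv_mul_cancel, Units.val_one, Matrix.one_mulVec]
  · have hu : 1 + (-(x j)⁻¹) + (-(x j)⁻¹) * (x - Pi.single j 1 : Fin n → F) j = 0 := by
      simp; field_simp; ring
    have h1 := one_add_vecMulVec_mul j (x - Pi.single j 1) _ hu
    refine ⟨⟨_, _, h1, mul_eq_one_comm.1 h1⟩, ?_⟩
    funext a
    simp [Matrix.one_apply, Matrix.vecMulVec_apply, Pi.single_apply]

theorem qS_eDiag_eq_spT (i : Fin n) (c : F) :
    qS (eDiag i c) = CfsgLib.Classical.Symp.spT (CfsgLib.Classical.Symp.stdF i) c := by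
  refine CfsgLib.Classical.Symp.symp_ext fun x => ?_
  rw [CfsgLib.Classical.Symp.spT_mulVec, CfsgLib.Classical.Symp.form_stdF_right]
  funext a
  rcases a with a | a <;>
    simp [qS_coe, eDiag, CfsgLib.Classical.Symp.stdF, Matrix.fromBlocks_mulVec, Matrix.single_mulVec,
      Pi.single_apply, Function.update_apply, Function.comp_def]

/-- The Siegel parabolic and the coordinate Weyl elements generate. -/
theorem eq_top_of_mem (hn : 2 ≤ n) (H : Subgroup (symplecticGroup (Fin n) F))
    (hq : ∀ S, qS S ∈ H) (hl : ∀ A, levi A ∈ H) (hw : ∀ i, wEl F i ∈ H) : H = ⊤ := by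
  rw [eq_top_iff]
  intro g hg
  clear hg
  let i₀ : Fin n := ⟨0, by omega⟩
  let f := CfsgLib.Classical.Symp.stdF (F := F) i₀
  have hreach1 : ∀ v : Fin n ⊕ Fin n → F, v ∘ Sum.inr ≠ 0 →
      ∃ h ∈ H, (h : Matrix (Fin n ⊕ Fin n) (Fin n ⊕ Fin n) F) *ᵥ f = v := by
    intro v hv
    obtain ⟨k, hk⟩ := Function.ne_iff.1 hv
    obtain ⟨A, hA⟩ := exists_gl_mulVec hn i₀ (x := -(v ∘ Sum.inr)) (neg_ne_zero.2 hv)
    set a : Fin n → F := v ∘ Sum.inl
    set b : Fin n → F := v ∘ Sum.inr
    have hk' : b k ≠ 0 := hk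
    let S : symSub n F := ⟨(b k)⁻¹ • (Matrix.vecMulVec a (Pi.single k 1) + Matrix.vecMulVec (Pi.single k 1) a) -
      ((a ⬝ᵥ b) * (b k)⁻¹ * (b k)⁻¹) • Matrix.single k k 1, by
        rw [mem_symSub]
        simp [transpose_vecMulVec, Matrix.transpose_single, add_comm]⟩
    have hS : (S : Matrix (Fin n) (Fin n) F) *ᵥ b = a := by
      funext c
      simp [S, sub_mulVec, smul_mulVec, add_mulVec, Matrix.vecMulVec_mulVec, Matrix.single_mulVec,
        Pi.single_apply, Function.update_apply]
      split_ifs <;> field_simp <;> simp_all <;> ring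
    refine ⟨qS S * levi A * wEl F i₀, H.mul_mem (H.mul_mem (hq S) (hl A)) (hw i₀), ?_⟩
    have h1 : (wEl F i₀ : Matrix (Fin n ⊕ Fin n) (Fin n ⊕ Fin n) F) *ᵥ f =
        Sum.elim (0 : Fin n → F) (-Pi.single i₀ (1 : F)) := by
      funext c
      rcases c with c | c <;>
        simp [f, wEl_coe, slMat, eMat, CfsgLib.Classical.Symp.stdF, Matrix.fromBlocks_mulVec,
          Function.comp_def, Pi.single_apply, Function.update_apply, Matrix.single_mulVec, sub_mulVec, add_mulVec,
          smul_mulVec, Matrix.single_apply, Matrix.one_apply, i₀] <;>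
        grind
    rw [CfsgLib.Classical.Symp.mul_mulVec, h1, CfsgLib.Classical.Symp.mul_mulVec]
    rw [levi_coe, qS_coe]
    simp only [Matrix.fromBlocks_mulVec, Sum.elim_comp_inl, Sum.elim_comp_inr, Matrix.mulVec_neg, hA,
      Matrix.mulVec_zero, Matrix.zero_mulVec, add_zero, zero_add, neg_neg, neg_zero, Matrix.one_mulVec]
    funext c
    rcases c with c | c <;> simp [hS, a, b]
  have hreach : ∀ v : Fin n ⊕ Fin n → F, v ≠ 0 →
      ∃ h ∈ H, (h : Matrix (Fin n ⊕ Fin n) (Fin n ⊕ Fin n) F) *ᵥ f = v := by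
    intro v hv
    by_cases hb : v ∘ Sum.inr = 0
    · obtain ⟨k, hk⟩ : ∃ k, v (Sum.inl k) ≠ 0 := by
        by_contra hc
        push Not at hc
        exact hv (funext fun c => by rcases c with c | c; exacts [hc c, congrFun hb c])
      obtain ⟨h, hh, hv'⟩ := hreach1 ((wEl F k : Matrix (Fin n ⊕ Fin n) (Fin n ⊕ Fin n) F) *ᵥ v) (by
        intro h0
        refine hk ?_
        have := congrFun h0 k
        simpa [wEl_coe, slMat, eMat, Matrix.fromBlocks_mulVec, Matrix.single_mulVec, Function.comp_def,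
          smul_mulVec, sub_mulVec, add_mulVec, neg_mulVec] using this)
      refine ⟨(wEl F k)⁻¹ * h, H.mul_mem (H.inv_mem (hw k)) hh, ?_⟩
      rw [CfsgLib.Classical.Symp.mul_mulVec, hv', CfsgLib.Classical.Symp.inv_mulVec_cancel]
    · exact hreach1 v hb
  induction g using CfsgLib.Classical.Symp.symp_induction with
  | h1 => exact H.one_mem
  | hmul a b ha hb => exact H.mul_mem ha hb
  | hT v c =>
    by_cases hv : v = 0
    · rw [hv, CfsgLib.Classical.Symp.spT_zero_left]; exact H.one_mem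
    obtain ⟨h, hh, rfl⟩ := hreach v hv
    rw [← CfsgLib.Classical.Symp.conj_spT, ← qS_eDiag_eq_spT]
    exact H.mul_mem (H.mul_mem hh (hq _)) (H.inv_mem hh)

end CfsgLib.SpWeilChars
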