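import Cfsg.Agent.SpWeilChars.Stab
import Mathlib.LinearAlgebra.Matrix.Swap

/-!
In a representation of `Sp_2n(q)` whose Siegel weights have rank at most one, every weight vector of
rank one spans, under the group, a submodule of dimension `(q^n ± 1)/2`.
-/

set_option autoImplicit false
set_option linter.unusedSectionVars false

namespace CfsgLib.SpWeilChars

open Matrix

variable {F : Type*} [Field F] [Fintype F] [DecidableEq F] {n : ℕ}
variable {V : Type*} [AddCommGroup V] [Module ℂ V]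
variable {ρ : Representation ℂ (symplecticGroup (Fin n) F) V} {ψ : AddChar F ℂ}

/-- A permutation swapping two basis vectors. -/
noncomputable def pGL (F : Type*) [Field F] (i j : Fin n) : GL (Fin n) F := Matrix.GeneralLinearGroup.swap F i j

theorem pGL_coe (i j : Fin n) :
    (pGL F i j : Matrix (Fin n) (Fin n) F) = Matrix.swap F i j := rfl

theorem pGL_inv_coe (i j : Fin n) :
    (((pGL F i j)⁻¹ : GL (Fin n) F) : Matrix (Fin n) (Fin n) F) = Matrix.swap F i j := rfl

theorem pGL_mulVec (i j : Fin n) :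
    (pGL F i j : Matrix (Fin n) (Fin n) F) *ᵥ Pi.single j 1 = Pi.single i 1 := by
  funext a
  rw [pGL_coe, Matrix.swap_mulVec]
  simp only [Function.comp_apply, Pi.single_apply, Equiv.swap_apply_def]
  split_ifs <;> simp_all

theorem levi_pGL_mul_wEl (i k : Fin n) :
    levi (pGL F i k) * wEl F i = wEl F k * levi (pGL F i k) := by
  apply Subtype.ext
  have h : Matrix.swap F i k * eMat F i = eMat F k * Matrix.swap F i k := by
    ext a b
    simp [eMat, Matrix.swap, Equiv.Perm.permMatrix, PEquiv.toMatrix_toPEquiv_mul,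
      PEquiv.mul_toMatrix_toPEquiv, Matrix.single_apply, Equiv.swap_apply_def]
    grind
  simp [wEl_coe, slMat, levi_coe, pGL_coe, pGL_inv_coe, fromBlocks_multiply, Matrix.transpose_swap, mul_add,
    add_mul, h, -Matrix.coe_units_inv]

/-- The signed swap of two coordinates. -/
def sGL (k j : Fin n) (h : k ≠ j) : GL (Fin n) F :=
  tGL k j h 1 * tGL j k (Ne.symm h) (-1) * tGL k j h 1

theorem sGL_mul_dGL (k j : Fin n) (h : k ≠ j) (c : Fˣ) :
    sGL k j h * dGL j c = dGL k c * sGL k j h := by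
  apply Units.ext
  have h' : j ≠ k := Ne.symm h
  simp [sGL, tGL_coe, dGL_coe, dMat, eMat, Matrix.transvection, add_mul, mul_add, Matrix.mul_smul,
    Matrix.smul_mul, h, h', Matrix.smul_single, Matrix.single_neg]
  ext a b
  simp [Matrix.single_apply, Matrix.one_apply, sub_eq_add_neg]
  grind

variable (hψ : ∀ a : F, a ≠ 0 → ∃ x : F, ψ (a * x) ≠ 1) (h2 : (2 : F) ≠ 0) (hlow : LowRank ρ ψ)

theorem rk1_eq_rk1_iff (h2 : (2 : F) ≠ 0) {ε : F} (hε : ε ≠ 0) (x y : Fin n → F) :
    rk1 ε x = rk1 ε y ↔ x = y ∨ x = -y := by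
  constructor
  · intro h
    have hh : ∀ k l, x k * x l = y k * y l := fun k l => by
      have := congrArg (fun W : symSub n F => (W : Matrix (Fin n) (Fin n) F) k l) h
      simp only [rk1_apply] at this
      exact mul_left_cancel₀ hε this
    by_cases hx : x = 0
    · left
      funext k
      have := hh k k
      rw [hx, Pi.zero_apply, zero_mul] at this
      rw [hx, Pi.zero_apply, mul_self_eq_zero.1 this.symm]
    obtain ⟨k, hk⟩ := Function.ne_iff.1 hx
    rcases mul_self_eq_mul_self_iff.1 (hh k k) with e | e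
    · left; funext l
      have := hh k l
      rw [← e] at this
      exact mul_left_cancel₀ hk this
    · right; funext l
      have := hh k l
      rw [e, neg_mul, ← mul_neg] at this
      have hy : y k ≠ 0 := fun h0 => hk (by rw [e, h0, neg_zero]; rfl)
      rw [Pi.neg_apply]
      have h3 := mul_left_cancel₀ hy (this.trans rfl)
      rw [← h3, neg_neg]
  · rintro (rfl | rfl)
    · rfl
    · apply symSub_ext; intro k l; simp [rk1_apply]

section Span

variable {ε : F} (hε : ε ≠ 0) {σ : ℂ} (hσ : ∀ v, ρ (levi (-1)) v = σ • v) {j : Fin n} {m : V}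
  (hm : m ∈ wt ρ ψ (rk1 ε (Pi.single j 1)))

/-- The span of the Levi orbit of `m`. -/
def orbitSpan (ρ : Representation ℂ (symplecticGroup (Fin n) F) V) (m : V) : Submodule ℂ V :=
  Submodule.span ℂ (Set.range fun A : GL (Fin n) F => ρ (levi A) m)

theorem levi_mem_orbitSpan (A : GL (Fin n) F) {v : V} (hv : v ∈ orbitSpan ρ m) :
    ρ (levi A) v ∈ orbitSpan ρ m := by
  induction hv using Submodule.span_induction with
  | mem x hx =>
    obtain ⟨B, rfl⟩ := hx
    exact Submodule.subset_span ⟨A * B, by simp⟩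
  | zero => simp
  | add x y _ _ hx hy => rw [map_add]; exact Submodule.add_mem _ hx hy
  | smul c x _ hx => rw [map_smul]; exact Submodule.smul_mem _ _ hx

theorem gen_mem_orbitSpan (A : GL (Fin n) F) : ρ (levi A) m ∈ orbitSpan ρ m :=
  Submodule.subset_span ⟨A, rfl⟩

theorem levi_gen_mem_wt (A : GL (Fin n) F) (hm : m ∈ wt ρ ψ (rk1 ε (Pi.single j 1))) :
    ρ (levi A) m ∈ wt ρ ψ (rk1 ε ((A : Matrix (Fin n) (Fin n) F) *ᵥ Pi.single j 1)) := by
  have := levi_mem_wt ρ ψ (A := A) hm
  rwa [actSym_rk1] at this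

include hm in
theorem qS_mem_orbitSpan (S : symSub n F) {v : V} (hv : v ∈ orbitSpan ρ m) :
    ρ (qS S) v ∈ orbitSpan ρ m := by
  induction hv using Submodule.span_induction with
  | mem x hx =>
    obtain ⟨B, rfl⟩ := hx
    rw [levi_gen_mem_wt B hm S]
    exact Submodule.smul_mem _ _ (gen_mem_orbitSpan B)
  | zero => simp
  | add x y _ _ hx hy => rw [map_add]; exact Submodule.add_mem _ hx hy
  | smul c x _ hx => rw [map_smul]; exact Submodule.smul_mem _ _ hx

include hψ h2 hm in
theorem proj_mem_orbitSpan (W : symSub n F) {v : V} (hv : v ∈ orbitSpan ρ m) :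
    proj ρ ψ W v ∈ orbitSpan ρ m := by
  induction hv using Submodule.span_induction with
  | mem x hx =>
    obtain ⟨B, rfl⟩ := hx
    rw [proj_apply_of_mem ρ hψ h2 (levi_gen_mem_wt B hm)]
    split_ifs
    · exact gen_mem_orbitSpan B
    · exact Submodule.zero_mem _
  | zero => simp
  | add x y _ _ hx hy => rw [map_add]; exact Submodule.add_mem _ hx hy
  | smul c x _ hx => rw [map_smul]; exact Submodule.smul_mem _ _ hx

include hψ h2 hlow hε hσ hm in
/-- Generators with the same weight are proportional. -/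
theorem gen_eq_smul_of_weight_eq {A B : GL (Fin n) F}
    (h : rk1 ε ((A : Matrix (Fin n) (Fin n) F) *ᵥ Pi.single j 1) =
      rk1 ε ((B : Matrix (Fin n) (Fin n) F) *ᵥ Pi.single j 1)) :
    ∃ c : ℂ, ρ (levi A) m = c • ρ (levi B) m := by
  have key : ∀ C : GL (Fin n) F,
      ((C : Matrix (Fin n) (Fin n) F) *ᵥ Pi.single j 1 = Pi.single j 1 ∨
       (C : Matrix (Fin n) (Fin n) F) *ᵥ Pi.single j 1 = -Pi.single j 1) → ∃ c : ℂ, ρ (levi C) m = c • m := by
    rintro C (hC | hC)
    · exact ActsScalar.of_mulVec hψ h2 hlow hε C hC m hm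
    · exact ActsScalar.of_mulVec_neg hψ h2 hlow hε σ hσ C hC m hm
  obtain ⟨c, hc⟩ := key (B⁻¹ * A) (by
    have hcancel : ((B⁻¹ : GL (Fin n) F) : Matrix (Fin n) (Fin n) F) *
        (B : Matrix (Fin n) (Fin n) F) = 1 := by
      rw [← Units.val_mul, inv_mul_cancel, Units.val_one]
    rcases (rk1_eq_rk1_iff h2 hε _ _).1 h with e | e
    · left; rw [Units.val_mul, ← Matrix.mulVec_mulVec, e, Matrix.mulVec_mulVec, hcancel, Matrix.one_mulVec]
    · right
      rw [Units.val_mul, ← Matrix.mulVec_mulVec, e, Matrix.mulVec_neg, Matrix.mulVec_mulVec, hcancel,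
        Matrix.one_mulVec])
  refine ⟨c, ?_⟩
  rw [← map_smul, ← hc, ← Module.End.mul_apply, ← map_mul, ← map_mul, mul_inv_cancel_left]

variable {i : Fin n} (hij : i ≠ j)

include hψ h2 hlow hε hσ hm hij in
/-- `w_i` on generators supported away from `i`. -/
theorem wEl_gen_mem {A : GL (Fin n) F}
    (hA : Function.update ((A : Matrix (Fin n) (Fin n) F) *ᵥ Pi.single j 1) i 0 ≠ 0) :
    ρ (wEl F i) (ρ (levi A) m) ∈ orbitSpan ρ m := by
  set x := (A : Matrix (Fin n) (Fin n) F) *ᵥ Pi.single j 1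
  obtain ⟨B, hBfix, hB⟩ := exists_gl_fixCoord (Ne.symm hij) (x := Function.update x i 0) (by simp) hA
  have hBi : (B : Matrix (Fin n) (Fin n) F) *ᵥ Pi.single i 1 = Pi.single i 1 := by
    have h := congrArg (fun M => M *ᵥ Pi.single i (1 : F)) hBfix.2
    simp only [← Matrix.mulVec_mulVec] at h
    have he : eMat F i *ᵥ Pi.single i (1 : F) = Pi.single i 1 := by
      funext a; simp [eMat, Pi.single_apply, Matrix.single_apply, eq_comm]
    rwa [he] at h
  have hx : rk1 ε x = rk1 ε (((B * tGL i j hij (x i) : GL (Fin n) F) :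
      Matrix (Fin n) (Fin n) F) *ᵥ Pi.single j 1) := by
    rw [Units.val_mul, ← Matrix.mulVec_mulVec, tGL_coe, transvection_mulVec_evec hij, evec, Matrix.mulVec_add,
      Matrix.mulVec_smul, hB, hBi]
    congr 1
    funext a
    by_cases ha : a = i <;> simp [ha]
  obtain ⟨c, hc⟩ := gen_eq_smul_of_weight_eq hψ h2 hlow hε hσ hm hx
  rw [hc, map_smul]
  refine Submodule.smul_mem _ _ ?_
  rw [map_mul levi, map_mul ρ, Module.End.mul_apply, ← Module.End.mul_apply, ← map_mul, wEl_comm_levi hBfix,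
    map_mul, Module.End.mul_apply, wEl_levi_tGL_aux hψ h2 hlow hij hε hm,
    (dGL_apply_and_wComp_apply hψ h2 hlow hij hε hm).1, map_sum]
  refine Submodule.sum_mem _ fun t _ => ?_
  rw [map_smul, map_smul, map_smul]
  exact Submodule.smul_mem _ _ (Submodule.smul_mem _ _ (levi_mem_orbitSpan _ (gen_mem_orbitSpan _)))

theorem dMat_fixCoord {i k : Fin n} (hik : i ≠ k) (c : F) : FixCoord i (dMat k c) := by
  constructor <;> simp [dMat, eMat, mul_add, add_mul, hik, Ne.symm hik]

/-- The image of the moved generator. -/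
noncomputable def xVec (ρ : Representation ℂ (symplecticGroup (Fin n) F) V) (i j : Fin n) (m : V) : V :=
  ρ (wEl F i) (ρ (levi (pGL F i j)) m)

include hm in
theorem pGL_gen_mem_wt : ρ (levi (pGL F i j)) m ∈ wt ρ ψ (rk1 ε (Pi.single i 1)) := by
  have := levi_gen_mem_wt (pGL F i j) hm
  rwa [pGL_mulVec] at this

include hψ h2 hlow hε hσ hm hij in
/-- The components of the image of the moved generator. -/
theorem proj_xVec_mem {W : symSub n F} (hW0 : W ≠ 0) : proj ρ ψ W (xVec ρ i j m) ∈ orbitSpan ρ m := by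
  classical
  set mi := ρ (levi (pGL F i j)) m with hmi_def
  have hmi : mi ∈ wt ρ ψ (rk1 ε (Pi.single i 1)) := pGL_gen_mem_wt hm
  have hji := Ne.symm hij
  have hshape : ∀ W', proj ρ ψ W' (xVec ρ i j m) ≠ 0 → ∀ k l, k ≠ i → l ≠ i →
      (W' : Matrix (Fin n) (Fin n) F) k l = 0 := by
    intro W' hne k l hk hl
    rw [entry_eq_of_comm ρ hψ h2 hmi (fun S hS => wEl_comm_qS hS) hne hk hl, rk1_apply]
    simp [hk]
  by_cases hne : proj ρ ψ W (xVec ρ i j m) = 0
  · rw [hne]; exact Submodule.zero_mem _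
  have hshapeR : ∀ W', proj ρ ψ W' (xVec ρ i j m) ≠ 0 → ∃ δ, W' = rk1 δ (Pi.single i 1) := by
    intro W' hne'
    obtain ⟨δ, z, rfl⟩ := hlow W' _ hne' (proj_mem ρ ψ _ _)
    by_cases hδ : δ = 0
    · exact ⟨0, by apply symSub_ext; intro k l; simp [rk1_apply, hδ]⟩
    refine ⟨δ * z i ^ 2, ?_⟩
    rw [← rk1_smul]
    congr 1
    funext k
    by_cases hk : k = i
    · subst hk; simp
    · have := hshape _ hne' k k hk hk
      rw [rk1_apply] at this
      simp [hk, mul_self_eq_zero.1 ((mul_eq_zero.1 this).resolve_left hδ)]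
  obtain ⟨δ, rfl⟩ := hshapeR W hne
  have hδ : δ ≠ 0 := fun h => hW0 (by apply symSub_ext; intro k l; simp [rk1_apply, h])
  set u := proj ρ ψ (rk1 δ (Pi.single i 1)) (xVec ρ i j m) with hu_def
  have hu : u ∈ wt ρ ψ (rk1 δ (Pi.single i 1)) := proj_mem ρ ψ _ _
  set αδ := (gsum ψ (-δ))⁻¹
  have hwu : ρ (wEl F j) u = ∑ t : F, αδ • ρ (levi (tGL j i hji t)) u := by
    rw [wEl_apply_aux hψ h2 hlow hji hδ hu, (dGL_apply_and_wComp_apply hψ h2 hlow hji hδ hu).1]
    simp only [map_smul]
    rfl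
  have hαδ : αδ ≠ 0 := by
    intro h0
    refine hne ?_
    have h1 := congrArg (ρ (wEl F j)⁻¹) hwu
    simp only [h0, zero_smul, Finset.sum_const_zero, map_zero, ← Module.End.mul_apply, ← map_mul,
      inv_mul_cancel, map_one, Module.End.one_apply] at h1
    exact h1
  set W₁ := rk1 δ (evec j i (1 : F))
  set α := (gsum ψ (-ε))⁻¹
  have hleft : proj ρ ψ W₁ (ρ (wEl F j) (xVec ρ i j m)) = αδ • ρ (levi (tGL j i hji 1)) u := by
    conv_lhs => rw [← sum_proj_apply ρ hψ h2 (xVec ρ i j m), map_sum, map_sum]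
    rw [Finset.sum_eq_single (rk1 δ (Pi.single i 1))]
    · rw [← hu_def, hwu, map_sum, Finset.sum_eq_single (1 : F)]
      · rw [map_smul, proj_apply_of_mem ρ hψ h2 (levi_tGL_mem hji hu 1), if_pos rfl]
      · intro t _ ht
        rw [map_smul, proj_apply_of_mem ρ hψ h2 (levi_tGL_mem hji hu t), if_neg, smul_zero]
        exact fun he => ht (rk1_evec_injective hji hδ he).symm
      · simp
    · intro W' _ hW'
      by_contra hne'
      have hne'' : proj ρ ψ W' (xVec ρ i j m) ≠ 0 := fun h => hne' (by rw [h, map_zero, map_zero])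
      obtain ⟨δ', rfl⟩ := hshapeR W' hne''
      have := entry_eq_of_comm ρ hψ h2 (proj_mem ρ ψ _ _) (fun S hS => wEl_comm_qS hS) hne' hij hij
      rw [rk1_apply, rk1_apply, evec_at_right hji, Pi.single_eq_same] at this
      simp only [mul_one] at this
      exact hW' (by rw [this])
    · simp
  have hright : proj ρ ψ W₁ (ρ (wEl F j) (xVec ρ i j m)) ∈ orbitSpan ρ m := by
    rw [xVec, ← Module.End.mul_apply (ρ (wEl F j)), ← map_mul ρ, wEl_comm_wEl hji, map_mul, Module.End.mul_apply, ← hmi_def,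
      wEl_apply_aux hψ h2 hlow hji hε hmi, (dGL_apply_and_wComp_apply hψ h2 hlow hji hε hmi).1, map_sum,
      map_sum]
    refine Submodule.sum_mem _ fun t _ => ?_
    rw [map_smul, map_smul, map_smul]
    refine Submodule.smul_mem _ _ ?_
    by_cases ht : t = 0
    · have h1 : tGL j i hji (0 : F) = 1 := Units.ext (by rw [tGL_coe, Matrix.transvection_zero, Units.val_one])
      subst ht
      rw [h1, map_one, map_one, Module.End.one_apply]
      by_cases hz : proj ρ ψ W₁ (ρ (wEl F i) mi) = 0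
      · rw [hz]; exact Submodule.zero_mem _
      have := hshape W₁ hz j j hji hji
      rw [rk1_apply, evec_at_left hji] at this
      simp [hδ] at this
    · refine proj_mem_orbitSpan hψ h2 hm _ ?_
      rw [hmi_def, ← Module.End.mul_apply (ρ (levi (tGL j i hji t))), ← map_mul ρ, ← map_mul levi]
      refine wEl_gen_mem hψ h2 hlow hε hσ hm hij fun h => ht ?_
      have := congrFun h j
      rw [Units.val_mul, ← Matrix.mulVec_mulVec, pGL_mulVec, tGL_coe, transvection_mulVec_evec hji,
        Function.update_of_ne hji, evec_at_left hji] at this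
      exact this
  rw [hleft] at hright
  have h3 := levi_mem_orbitSpan (tGL j i hji 1)⁻¹ (Submodule.smul_mem _ αδ⁻¹ hright)
  rwa [smul_smul, inv_mul_cancel₀ hαδ, one_smul, ← Module.End.mul_apply, ← map_mul ρ, ← map_mul levi,
    inv_mul_cancel, map_one, map_one, Module.End.one_apply] at h3

include hψ h2 hlow hε hσ hm hij in
/-- The line of the fixed component is stable under the Levi complement. -/
theorem levi_x0 (A : GL (Fin n) F) :
    ∃ c : ℂ, ρ (levi A) (proj ρ ψ 0 (xVec ρ i j m)) = c • proj ρ ψ 0 (xVec ρ i j m) := by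
  set x0 := proj ρ ψ 0 (xVec ρ i j m)
  have ht : ∀ (k l : Fin n) (h : k ≠ l) (b : F), ρ (levi (tGL k l h b)) x0 = x0 := fun k l h b =>
    levi_tGL_apply hψ h2 hlow h (proj_mem ρ ψ 0 _) (by simp) b
  have hji := Ne.symm hij
  have hdj : ∀ c : Fˣ, ∃ a : ℂ, ρ (levi (dGL j c)) x0 = a • x0 := by
    intro c
    obtain ⟨a, ha⟩ := ActsScalar.dGL (ρ := ρ) hψ h2 hlow hε hji c _ (pGL_gen_mem_wt (i := i) hm)
    refine ⟨a, ?_⟩
    rw [levi_proj ρ hψ h2, show actSym (dGL j c : Matrix (Fin n) (Fin n) F) 0 = 0 by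
      apply Subtype.ext; simp [actSym], xVec, ← Module.End.mul_apply (ρ (levi (dGL j c))), ← map_mul ρ,
      ← wEl_comm_levi (A := dGL j c) (dMat_fixCoord hij _), map_mul, Module.End.mul_apply, ha, map_smul,
      map_smul]
    rfl
  have hd : ∀ (k : Fin n) (c : Fˣ), ∃ a : ℂ, ρ (levi (dGL k c)) x0 = a • x0 := by
    intro k c
    by_cases hk : k = j
    · subst hk; exact hdj c
    obtain ⟨a, ha⟩ := hdj c
    refine ⟨a, ?_⟩
    have hs : ρ (levi (sGL k j hk)) x0 = x0 := by
      simp only [sGL, map_mul, Module.End.mul_apply, ht]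
    have h := congrArg (fun g => ρ (levi g) x0) (sGL_mul_dGL k j hk c)
    simp only [map_mul, Module.End.mul_apply, hs, ha, map_smul] at h
    exact h.symm
  let P : GL (Fin n) F → Prop := fun B => ∃ a : ℂ, ρ (levi B) x0 = a • x0
  have hmul : ∀ B C, P B → P C → P (B * C) := by
    rintro B C ⟨b, hb⟩ ⟨c, hc⟩
    exact ⟨c * b, by rw [map_mul, map_mul, Module.End.mul_apply, hc, map_smul, hb, smul_smul]⟩
  suffices H : ∀ M : Matrix (Fin n) (Fin n) F, M.det ≠ 0 →
      ∀ B : GL (Fin n) F, (B : Matrix (Fin n) (Fin n) F) = M → P B from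
    H _ ((Matrix.isUnit_iff_isUnit_det _).1 A.isUnit).ne_zero A rfl
  intro M hM
  refine Matrix.diagonal_transvection_induction_of_det_ne_zero
    (fun M => ∀ B : GL (Fin n) F, (B : Matrix (Fin n) (Fin n) F) = M → P B) M hM ?_ ?_ ?_
  · intro D hD B hB
    rw [Matrix.det_diagonal] at hD
    let E : Fin n → Fˣ := fun a => Units.mk0 (D a) (Finset.prod_ne_zero_iff.1 hD a (Finset.mem_univ _))
    have : B = dDiag E := Units.ext (by rw [hB, dDiag_coe]; rfl)
    rw [this, ← Finset.univ_prod_mulSingle E]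
    refine Finset.prod_induction _ (fun E => P (dDiag E)) (fun a b ha hb => by rw [map_mul]; exact hmul _ _ ha hb)
      ⟨1, by simp⟩ fun k _ => ?_
    rw [dDiag_mulSingle]; exact hd k _
  · intro t B hB
    have : B = tGL t.i t.j t.hij t.c := Units.ext hB
    rw [this]
    exact ⟨1, by rw [one_smul]; exact ht _ _ _ _⟩
  · intro M N hM' hN' ihM ihN B hB
    have : B = Matrix.GeneralLinearGroup.mkOfDetNeZero M hM' *
        Matrix.GeneralLinearGroup.mkOfDetNeZero N hN' := Units.ext hB
    rw [this]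
    exact hmul _ _ (ihM _ rfl) (ihN _ rfl)

/-- The submodule generated by the orbit of `m`. -/
noncomputable def genMod (ρ : Representation ℂ (symplecticGroup (Fin n) F) V) (ψ : AddChar F ℂ) (i j : Fin n)
    (m : V) : Submodule ℂ V :=
  orbitSpan ρ m ⊔ Submodule.span ℂ {proj ρ ψ 0 (xVec ρ i j m)}

include hψ h2 hlow hε hσ hm hij in
theorem levi_mem_genMod (A : GL (Fin n) F) {v : V} (hv : v ∈ genMod ρ ψ i j m) :
    ρ (levi A) v ∈ genMod ρ ψ i j m := by
  obtain ⟨a, ha, b, hb, rfl⟩ := Submodule.mem_sup.1 hv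
  obtain ⟨c, rfl⟩ := Submodule.mem_span_singleton.1 hb
  obtain ⟨e, he⟩ := levi_x0 hψ h2 hlow hε hσ hm hij A
  rw [map_add, map_smul, he]
  exact Submodule.add_mem_sup (levi_mem_orbitSpan A ha)
    (Submodule.smul_mem _ _ (Submodule.smul_mem _ _ (Submodule.mem_span_singleton_self _)))

include hψ h2 hlow hε hσ hm hij in
theorem xVec_mem_genMod : xVec ρ i j m ∈ genMod ρ ψ i j m := by
  classical
  rw [← sum_proj_apply ρ hψ h2 (xVec ρ i j m)]
  refine Submodule.sum_mem _ fun W _ => ?_
  by_cases hW : W = 0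
  · subst hW; exact Submodule.mem_sup_right (Submodule.mem_span_singleton_self _)
  · exact Submodule.mem_sup_left (proj_xVec_mem hψ h2 hlow hε hσ hm hij hW)

include hψ h2 hlow hε hσ hm hij in
theorem wEl_mem_genMod_of_orbit {v : V} (hv : v ∈ orbitSpan ρ m) :
    ρ (wEl F i) v ∈ genMod ρ ψ i j m := by
  induction hv using Submodule.span_induction with
  | mem x hx =>
    obtain ⟨A, rfl⟩ := hx
    by_cases hA : Function.update ((A : Matrix (Fin n) (Fin n) F) *ᵥ Pi.single j 1) i 0 = 0
    · set y := (A : Matrix (Fin n) (Fin n) F) *ᵥ Pi.single j 1 with hy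
      have hyi : y i ≠ 0 := by
        intro h0
        have hy0 : y = 0 := by
          rw [← Function.update_eq_self i y, h0, hA]
        have h1 := congrArg (((A⁻¹ : GL (Fin n) F) : Matrix (Fin n) (Fin n) F) *ᵥ ·) hy0
        simp only [hy, Matrix.mulVec_mulVec, ← Units.val_mul, inv_mul_cancel, Units.val_one, Matrix.one_mulVec,
          Matrix.mulVec_zero] at h1
        exact one_ne_zero (α := F) (by simpa using congrFun h1 j)
      set c : Fˣ := Units.mk0 (y i) hyi
      obtain ⟨a, ha⟩ := gen_eq_smul_of_weight_eq hψ h2 hlow hε hσ hm (A := A) (B := dGL i c * pGL F i j) (by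
        congr 1
        rw [Units.val_mul, ← Matrix.mulVec_mulVec, pGL_mulVec, dGL_coe]
        funext k
        by_cases hk : k = i
        · subst hk
          simp [dMat, eMat, c, ← hy]
        · have := congrFun hA k
          rw [Function.update_of_ne hk] at this
          rw [← hy, this]
          simp [dMat, eMat, hk, Ne.symm hk, add_mulVec, smul_mulVec, Matrix.single_mulVec,
            Function.update_apply, Matrix.one_apply])
      show ρ (wEl F i) (ρ (levi A) m) ∈ _
      rw [ha, map_smul, map_mul levi, map_mul ρ, Module.End.mul_apply, ← Module.End.mul_apply, ← map_mul ρ,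
        wEl_mul_levi_dGL, map_mul, Module.End.mul_apply]
      exact Submodule.smul_mem _ _ (levi_mem_genMod hψ h2 hlow hε hσ hm hij _
        (xVec_mem_genMod hψ h2 hlow hε hσ hm hij))
    · exact Submodule.mem_sup_left (wEl_gen_mem hψ h2 hlow hε hσ hm hij hA)
  | zero => simp
  | add x y _ _ hx hy => rw [map_add]; exact Submodule.add_mem _ hx hy
  | smul c x _ hx => rw [map_smul]; exact Submodule.smul_mem _ _ hx

include hψ h2 hlow hε hσ hm hij in
theorem wEl_mem_genMod {v : V} (hv : v ∈ genMod ρ ψ i j m) : ρ (wEl F i) v ∈ genMod ρ ψ i j m := by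
  classical
  obtain ⟨a, ha, b, hb, rfl⟩ := Submodule.mem_sup.1 hv
  obtain ⟨c, rfl⟩ := Submodule.mem_span_singleton.1 hb
  rw [map_add, map_smul]
  refine Submodule.add_mem _ (wEl_mem_genMod_of_orbit hψ h2 hlow hε hσ hm hij ha) (Submodule.smul_mem _ _ ?_)
  have h0 : proj ρ ψ 0 (xVec ρ i j m) = xVec ρ i j m -
      ∑ W ∈ Finset.univ.erase 0, proj ρ ψ W (xVec ρ i j m) := by
    rw [eq_sub_iff_add_eq, Finset.add_sum_erase _ (fun W => proj ρ ψ W (xVec ρ i j m)) (Finset.mem_univ _),
      sum_proj_apply ρ hψ h2]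
  rw [h0, map_sub]
  refine Submodule.sub_mem _ ?_ (wEl_mem_genMod_of_orbit hψ h2 hlow hε hσ hm hij
    (Submodule.sum_mem _ fun W hW => proj_xVec_mem hψ h2 hlow hε hσ hm hij (Finset.ne_of_mem_erase hW)))
  rw [xVec, ← Module.End.mul_apply, ← map_mul, wEl_sq, ← Module.End.mul_apply, ← map_mul ρ, ← map_mul levi]
  exact Submodule.mem_sup_left (gen_mem_orbitSpan _)

include hψ h2 hlow hε hσ hm hij in
theorem genMod_invariant (hn : 2 ≤ n) (g : symplecticGroup (Fin n) F) {v : V} (hv : v ∈ genMod ρ ψ i j m) :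
    ρ g v ∈ genMod ρ ψ i j m := by
  classical
  let M : Submonoid (symplecticGroup (Fin n) F) :=
    { carrier := {g | ∀ v ∈ genMod ρ ψ i j m, ρ g v ∈ genMod ρ ψ i j m}
      one_mem' := fun v hv => by rwa [map_one, Module.End.one_apply]
      mul_mem' := fun {a b} ha hb v hv => by rw [map_mul, Module.End.mul_apply]; exact ha _ (hb _ hv) }
  let H : Subgroup (symplecticGroup (Fin n) F) :=
    { M with
      inv_mem' := fun {a} ha => by
        have : a⁻¹ = a ^ (orderOf a - 1) := inv_eq_of_mul_eq_one_left (by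
          rw [← pow_succ, Nat.sub_add_cancel (orderOf_pos a), pow_orderOf_eq_one])
        change a⁻¹ ∈ M
        rw [this]
        exact M.pow_mem ha _ }
  have hl : ∀ A, levi A ∈ H := fun A v hv => levi_mem_genMod hψ h2 hlow hε hσ hm hij A hv
  have hw : wEl F i ∈ H := fun v hv => wEl_mem_genMod hψ h2 hlow hε hσ hm hij hv
  have hH : H = ⊤ := by
    refine eq_top_of_mem hn H (fun S v hv => ?_) hl fun k => ?_
    · obtain ⟨a, ha, b, hb, rfl⟩ := Submodule.mem_sup.1 hv
      obtain ⟨c, rfl⟩ := Submodule.mem_span_singleton.1 hb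
      rw [map_add, map_smul, proj_mem ρ ψ 0 _ S]
      exact Submodule.add_mem_sup (qS_mem_orbitSpan hm S ha)
        (Submodule.smul_mem _ _ (Submodule.smul_mem _ _ (Submodule.mem_span_singleton_self _)))
    · have : wEl F k = levi (pGL F i k) * wEl F i * (levi (pGL F i k))⁻¹ := by
        rw [levi_pGL_mul_wEl, mul_inv_cancel_right]
      rw [this]
      exact H.mul_mem (H.mul_mem (hl _) hw) (H.inv_mem (hl _))
  exact (hH ▸ Subgroup.mem_top g : g ∈ H) v hv

include hψ h2 hlow hε hσ hm in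
theorem proj_base_genMod {v : V} (hv : v ∈ genMod ρ ψ i j m) :
    ∃ c : ℂ, proj ρ ψ (rk1 ε (Pi.single j 1)) v = c • m := by
  have hne : rk1 ε (Pi.single j (1 : F)) ≠ 0 := fun h => hε (by
    have := congrArg (fun W : symSub n F => (W : Matrix (Fin n) (Fin n) F) j j) h
    simpa [rk1_apply] using this)
  obtain ⟨a, ha, b, hb, rfl⟩ := Submodule.mem_sup.1 hv
  obtain ⟨c, rfl⟩ := Submodule.mem_span_singleton.1 hb
  have hx0 : proj ρ ψ (rk1 ε (Pi.single j (1 : F))) (c • proj ρ ψ 0 (xVec ρ i j m)) = 0 := by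
    rw [map_smul, proj_apply_of_mem ρ hψ h2 (proj_mem ρ ψ 0 _), if_neg hne, smul_zero]
  rw [map_add, hx0, add_zero]
  clear hv hb hx0
  induction ha using Submodule.span_induction with
  | mem x hx =>
    obtain ⟨A, rfl⟩ := hx
    rw [proj_apply_of_mem ρ hψ h2 (levi_gen_mem_wt A hm)]
    split_ifs with h
    · obtain ⟨c, hc⟩ := gen_eq_smul_of_weight_eq hψ h2 hlow hε hσ hm (A := A) (B := 1)
        (by rw [← h, Units.val_one, Matrix.one_mulVec])
      exact ⟨c, by rw [hc, map_one, map_one, Module.End.one_apply]⟩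
    · exact ⟨0, by rw [zero_smul]⟩
  | zero => exact ⟨0, by simp⟩
  | add x y _ _ hx hy =>
    obtain ⟨c, hc⟩ := hx; obtain ⟨d, hd⟩ := hy
    exact ⟨c + d, by rw [map_add, hc, hd, add_smul]⟩
  | smul e x _ hx =>
    obtain ⟨c, hc⟩ := hx
    exact ⟨e * c, by rw [map_smul, hc, smul_smul]⟩

/-- The rank one weights of the class `ε`. -/
def weightSet (ε : F) : Finset (symSub n F) :=
  (Finset.univ.erase (0 : Fin n → F)).image (rk1 ε)

include hε in
theorem two_mul_card_weightSet (h2 : (2 : F) ≠ 0) :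
    2 * (weightSet (n := n) ε).card + 1 = Fintype.card F ^ n := by
  classical
  have h : (Finset.univ.erase (0 : Fin n → F)).card = (weightSet (n := n) ε).card * 2 := by
    refine Finset.card_eq_sum_card_fiberwise (f := rk1 ε) (fun x hx => Finset.mem_image_of_mem _ hx) |>.trans ?_
    rw [Finset.sum_congr rfl (g := fun _ => 2), Finset.sum_const, smul_eq_mul]
    · rfl
    intro W hW
    obtain ⟨x, hx, rfl⟩ := Finset.mem_image.1 hW
    have hx0 := Finset.ne_of_mem_erase hx
    rw [show ((Finset.univ.erase (0 : Fin n → F)).filter fun y => rk1 ε y = rk1 ε x) = {x, -x} by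
      ext y
      simp only [Finset.mem_filter, Finset.mem_erase, Finset.mem_univ, and_true, Finset.mem_insert,
        Finset.mem_singleton, rk1_eq_rk1_iff h2 hε]
      constructor
      · exact fun h => h.2
      · rintro (rfl | rfl) <;> simp [hx0]]
    refine Finset.card_pair fun e => hx0 ?_
    funext k
    have := congrFun e k
    rw [Pi.neg_apply] at this
    exact (mul_eq_zero.1 (show (2 : F) * x k = 0 by linear_combination this)).resolve_left h2
  have h1 : 1 ≤ Fintype.card (Fin n → F) := Fintype.card_pos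
  rw [Finset.card_erase_of_mem (Finset.mem_univ _), Finset.card_univ] at h
  rw [← show Fintype.card (Fin n → F) = Fintype.card F ^ n by simp]
  omega

include hψ h2 hlow hε hσ hm in
theorem finrank_genMod [FiniteDimensional ℂ V] (hn : 2 ≤ n) (hm0 : m ≠ 0) :
    (weightSet (n := n) ε).card ≤ Module.finrank ℂ (genMod ρ ψ i j m) ∧
      Module.finrank ℂ (genMod ρ ψ i j m) ≤ (weightSet (n := n) ε).card + 1 := by
  classical
  have hex : ∀ W : {W // W ∈ weightSet (n := n) ε}, ∃ A : GL (Fin n) F,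
      rk1 ε ((A : Matrix (Fin n) (Fin n) F) *ᵥ Pi.single j 1) = W.1 := by
    rintro ⟨W, hW⟩
    obtain ⟨x, hx, rfl⟩ := Finset.mem_image.1 hW
    obtain ⟨A, hA⟩ := exists_gl_mulVec hn j (Finset.ne_of_mem_erase hx)
    exact ⟨A, by rw [hA]⟩
  choose A hA using hex
  set f : {W // W ∈ weightSet (n := n) ε} → V := fun W => ρ (levi (A W)) m
  have hf : ∀ W, f W ∈ wt ρ ψ W.1 := fun W => hA W ▸ levi_gen_mem_wt (A W) hm
  have hf0 : ∀ W, f W ≠ 0 := by
    intro W h
    refine hm0 ?_
    have := congrArg (ρ (levi (A W))⁻¹) h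
    simpa only [f, ← Module.End.mul_apply, ← map_mul, inv_mul_cancel, map_one, Module.End.one_apply,
      map_zero] using this
  have hli : LinearIndependent ℂ f := by
    rw [Fintype.linearIndependent_iff]
    intro g hg W
    have h := congrArg (proj ρ ψ W.1) hg
    rw [map_sum, map_zero, Finset.sum_eq_single W] at h
    · rw [map_smul, proj_apply_of_mem ρ hψ h2 (hf W), if_pos rfl] at h
      exact (smul_eq_zero.1 h).resolve_right (hf0 W)
    · intro W' _ hne
      rw [map_smul, proj_apply_of_mem ρ hψ h2 (hf W'), if_neg (fun e => hne (Subtype.ext e.symm)), smul_zero]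
    · simp
  have hspan : orbitSpan ρ m = Submodule.span ℂ (Set.range f) := by
    refine le_antisymm (Submodule.span_le.2 ?_) (Submodule.span_le.2 ?_)
    · rintro _ ⟨B, rfl⟩
      have hx0 : (B : Matrix (Fin n) (Fin n) F) *ᵥ Pi.single j 1 ≠ 0 := by
        intro h0
        have h1 := congrArg (((B⁻¹ : GL (Fin n) F) : Matrix (Fin n) (Fin n) F) *ᵥ ·) h0
        simp only [Matrix.mulVec_mulVec, ← Units.val_mul, inv_mul_cancel, Units.val_one, Matrix.one_mulVec,
          Matrix.mulVec_zero] at h1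
        exact one_ne_zero (α := F) (by simpa using congrFun h1 j)
      let W : {W // W ∈ weightSet (n := n) ε} :=
        ⟨rk1 ε ((B : Matrix (Fin n) (Fin n) F) *ᵥ Pi.single j 1),
          Finset.mem_image_of_mem _ (Finset.mem_erase.2 ⟨hx0, Finset.mem_univ _⟩)⟩
      obtain ⟨c, hc⟩ := gen_eq_smul_of_weight_eq hψ h2 hlow hε hσ hm (A := B) (B := A W) (hA W).symm
      show ρ (levi B) m ∈ Submodule.span ℂ (Set.range f)
      rw [hc]
      exact Submodule.smul_mem _ _ (Submodule.subset_span ⟨W, rfl⟩)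
    · rintro _ ⟨W, rfl⟩
      exact gen_mem_orbitSpan _
  have hcard : Module.finrank ℂ (orbitSpan ρ m) = (weightSet (n := n) ε).card := by
    rw [hspan, finrank_span_eq_card hli, Fintype.card_coe]
  have h1 : Module.finrank ℂ (Submodule.span ℂ {proj ρ ψ 0 (xVec ρ i j m)}) ≤ 1 :=
    (finrank_span_le_card _).trans (by simp)
  have h3 := Submodule.finrank_sup_add_finrank_inf_eq (orbitSpan ρ m)
    (Submodule.span ℂ {proj ρ ψ 0 (xVec ρ i j m)})
  have h4 : orbitSpan ρ m ≤ genMod ρ ψ i j m := le_sup_left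
  constructor
  · rw [← hcard]; exact Submodule.finrank_mono h4
  · rw [genMod]; omega

include hψ h2 hlow hε hσ hm in
/-- A rank one weight vector generates a submodule of dimension `(q^n ± 1)/2`. -/
theorem exists_invariant [FiniteDimensional ℂ V] (hn : 2 ≤ n) (hm0 : m ≠ 0) :
    ∃ S : Submodule ℂ V, (∀ g, ∀ v ∈ S, ρ g v ∈ S) ∧ m ∈ S ∧
      (∀ v ∈ S, ∃ c : ℂ, proj ρ ψ (rk1 ε (Pi.single j 1)) v = c • m) ∧
      (2 * Module.finrank ℂ S + 1 = Fintype.card F ^ n ∨ 2 * Module.finrank ℂ S = Fintype.card F ^ n + 1) := by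
  obtain ⟨i, hij⟩ := Fintype.exists_ne_of_one_lt_card (by rw [Fintype.card_fin]; omega) j
  refine ⟨genMod ρ ψ i j m, fun g v hv => genMod_invariant hψ h2 hlow hε hσ hm hij hn g hv, ?_,
    fun v hv => proj_base_genMod hψ h2 hlow hε hσ hm hv, ?_⟩
  · refine Submodule.mem_sup_left ?_
    simpa using gen_mem_orbitSpan (ρ := ρ) (m := m) 1
  · obtain ⟨h5, h6⟩ := finrank_genMod (i := i) hψ h2 hlow hε hσ hm hn hm0
    have := two_mul_card_weightSet (n := n) hε h2
    omega

end Span

end CfsgLib.SpWeilChars
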