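import Cfsg.Agent.SpWeilChars.Weight

/-!
Representations of `Sp_2n(q)` all of whose Siegel weights have rank at most one: the Weyl element of
a coordinate acts as a Fourier transform and the stabiliser of a weight acts by scalars.
-/

set_option autoImplicit false
set_option linter.unusedSectionVars false

namespace CfsgLib.SpWeilChars

open Matrix

variable {F : Type*} [Field F] [Fintype F] [DecidableEq F] {n : ℕ}
variable {V : Type*} [AddCommGroup V] [Module ℂ V]
variable {ρ : Representation ℂ (symplecticGroup (Fin n) F) V} {ψ : AddChar F ℂ}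

/-- The quadratic Gauss sum. -/
noncomputable def gsum (ψ : AddChar F ℂ) (c : F) : ℂ := ∑ s : F, ψ (c * s ^ 2)

/-- The vector `e_j + s e_i`. -/
def evec (i j : Fin n) (s : F) : Fin n → F := Pi.single j 1 + s • Pi.single i 1

theorem evec_zero (i j : Fin n) : evec i j (0 : F) = Pi.single j 1 := by simp [evec]

theorem evec_at_left {i j : Fin n} (hij : i ≠ j) (s : F) : evec i j s i = s := by
  simp [evec, hij]

theorem evec_at_right {i j : Fin n} (hij : i ≠ j) (s : F) : evec i j s j = 1 := by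
  simp [evec, Ne.symm hij]

theorem evec_at_other {i j k : Fin n} (hki : k ≠ i) (hkj : k ≠ j) (s : F) : evec i j s k = 0 := by
  simp [evec, hki, hkj]

theorem transvection_mulVec_evec {i j : Fin n} (hij : i ≠ j) (s : F) :
    Matrix.transvection i j s *ᵥ Pi.single j (1 : F) = evec i j s := by
  funext k
  simp [Matrix.transvection, evec, Pi.single_apply, Matrix.one_apply, Matrix.single_apply, eq_comm]

theorem rk1_evec_injective {i j : Fin n} (hij : i ≠ j) {ε : F} (hε : ε ≠ 0) :
    Function.Injective fun s => rk1 ε (evec i j s) := by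
  intro s t h
  have := congrArg (fun W : symSub n F => (W : Matrix (Fin n) (Fin n) F) i j) h
  simp only [rk1_apply, evec_at_left hij, evec_at_right hij, mul_one] at this
  exact mul_left_cancel₀ hε this

variable (hψ : ∀ a : F, a ≠ 0 → ∃ x : F, ψ (a * x) ≠ 1) (h2 : (2 : F) ≠ 0) (hlow : LowRank ρ ψ)

include hψ h2 hlow in
/-- Transvections fixing the support of a weight act trivially. -/
theorem levi_tGL_apply {i j : Fin n} (hij : i ≠ j) {W : symSub n F} {v : V} (hv : v ∈ wt ρ ψ W)
    (hW : (W : Matrix (Fin n) (Fin n) F) j j = 0) (b : F) : ρ (levi (tGL i j hij b)) v = v := by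
  have hu : ρ (qS (eOff i j (-b))) (ρ (wEl F i)⁻¹ v) = ρ (wEl F i)⁻¹ v := by
    conv_rhs => rw [← sum_proj_apply ρ hψ h2 (ρ (wEl F i)⁻¹ v)]
    conv_lhs => rw [← sum_proj_apply ρ hψ h2 (ρ (wEl F i)⁻¹ v), map_sum]
    refine Finset.sum_congr rfl fun W' _ => ?_
    rw [proj_mem ρ ψ W' _ _]
    by_cases hne : proj ρ ψ W' (ρ (wEl F i)⁻¹ v) = 0
    · rw [hne, smul_zero]
    have h1 := entry_eq_of_comm ρ hψ h2 hv (fun S hS => wEl_inv_comm_qS S hS) hne (Ne.symm hij) (Ne.symm hij)
    obtain ⟨ε, x, rfl⟩ := hlow W' _ hne (proj_mem ρ ψ _ _)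
    rw [hW, rk1_apply] at h1
    have h3 : ε * (x i * x j) = 0 := by
      rcases mul_eq_zero.1 h1 with h | h
      · rw [h, zero_mul]
      · rw [(mul_self_eq_zero.1 h), mul_zero, mul_zero]
    rw [pairing_eOff, rk1_apply, h3, mul_zero, zero_mul, ψ.map_zero_eq_one, one_smul]
  have h := congrArg (ρ (wEl F i)) hu
  rw [← Module.End.mul_apply, ← map_mul, wEl_mul_qS_eOff i j hij, neg_neg] at h
  simpa only [← Module.End.mul_apply, ← map_mul, mul_assoc, mul_inv_cancel, mul_one, map_one,
    Module.End.one_apply] using h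

include hψ h2 hlow in
/-- The weights of `w_i v` for a weight vector `v` with support away from `i`. -/
theorem exists_update_of_proj_ne {i : Fin n} {ε : F} (hε : ε ≠ 0) {x : Fin n → F} {v : V}
    (hv : v ∈ wt ρ ψ (rk1 ε x)) {k : Fin n} (hki : k ≠ i) (hxk : x k ≠ 0) {W' : symSub n F}
    (hne : proj ρ ψ W' (ρ (wEl F i) v) ≠ 0) : ∃ s, W' = rk1 ε (Function.update x i s) := by
  have hent := fun {a b : Fin n} (ha : a ≠ i) (hb : b ≠ i) =>
    entry_eq_of_comm ρ hψ h2 hv (fun S hS => wEl_comm_qS hS) hne ha hb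
  obtain ⟨δ, z, rfl⟩ := hlow W' _ hne (proj_mem ρ ψ _ _)
  have h1 := hent hki hki
  rw [rk1_apply, rk1_apply] at h1
  have h1' : δ * (z k * z k) ≠ 0 := h1 ▸ mul_ne_zero hε (mul_ne_zero hxk hxk)
  have hzk : z k ≠ 0 := fun h => h1' (by simp [h])
  have hδ : δ ≠ 0 := left_ne_zero_of_mul h1'
  set c := z k / x k
  have hc : c ≠ 0 := div_ne_zero hzk hxk
  have hδc : δ * c ^ 2 = ε := by
    simp only [c]
    field_simp
    linear_combination h1
  refine ⟨z i / c, ?_⟩
  rw [← hδc, ← rk1_smul]
  congr 1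
  funext l
  by_cases hl : l = i
  · subst hl
    rw [Pi.smul_apply, Function.update_self, smul_eq_mul, mul_div_cancel₀ _ hc]
  · rw [Pi.smul_apply, Function.update_of_ne hl, smul_eq_mul]
    have h3 := hent hki hl
    rw [rk1_apply, rk1_apply, ← hδc] at h3
    have h4 : δ * z k * z l = δ * z k * (c * x l) := by
      have hz : z k = c * x k := (div_mul_cancel₀ _ hxk).symm
      linear_combination h3 - (δ * c * x l) * hz
    exact mul_left_cancel₀ (mul_ne_zero hδ hzk) h4

/-- The component operator of `w_i`. -/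
noncomputable def wComp (ρ : Representation ℂ (symplecticGroup (Fin n) F) V) (ψ : AddChar F ℂ) (i j : Fin n)
    (ε : F) : Module.End ℂ V := proj ρ ψ (rk1 ε (Pi.single j 1)) * ρ (wEl F i)

theorem wComp_mem (i j : Fin n) (ε : F) (v : V) :
    wComp ρ ψ i j ε v ∈ wt ρ ψ (rk1 ε (Pi.single j 1)) := proj_mem ρ ψ _ _

theorem levi_tGL_mem {i j : Fin n} (hij : i ≠ j) {ε : F} {v : V} (hv : v ∈ wt ρ ψ (rk1 ε (Pi.single j 1)))
    (s : F) : ρ (levi (tGL i j hij s)) v ∈ wt ρ ψ (rk1 ε (evec i j s)) := by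
  have := levi_mem_wt ρ ψ (A := tGL i j hij s) hv
  rwa [actSym_rk1, tGL_coe, transvection_mulVec_evec hij] at this

theorem dMat_mulVec {i j : Fin n} (hij : i ≠ j) (c : F) :
    dMat i c *ᵥ Pi.single j (1 : F) = Pi.single j 1 := by
  funext k
  simp [dMat, eMat, add_mulVec, smul_mulVec, Matrix.single_mulVec, Function.update_apply, Pi.single_apply,
    Ne.symm hij, hij, Matrix.one_apply]

theorem levi_dGL_mem {i j : Fin n} (hij : i ≠ j) {ε : F} {v : V} (hv : v ∈ wt ρ ψ (rk1 ε (Pi.single j 1)))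
    (c : Fˣ) : ρ (levi (dGL i c)) v ∈ wt ρ ψ (rk1 ε (Pi.single j 1)) := by
  have := levi_mem_wt ρ ψ (A := dGL i c) hv
  rwa [actSym_rk1, dGL_coe, dMat_mulVec hij] at this

section Fourier

variable {i j : Fin n} (hij : i ≠ j) {ε : F} (hε : ε ≠ 0)

include hψ h2 hlow hε in
theorem wEl_apply_aux {v : V} (hv : v ∈ wt ρ ψ (rk1 ε (Pi.single j 1))) :
    ρ (wEl F i) v = ∑ s : F, ρ (levi (tGL i j hij s)) (wComp ρ ψ i j ε v) := by
  classical
  have hfix : ∀ s, ρ (levi (tGL i j hij s)) (ρ (wEl F i) v) = ρ (wEl F i) v := by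
    intro s
    have h1 := wEl_mul_qS_eOff i j hij (-s)
    rw [neg_neg] at h1
    rw [← Module.End.mul_apply, ← map_mul, ← h1, map_mul, Module.End.mul_apply, hv, map_smul, pairing_eOff,
      rk1_apply]
    simp [Ne.symm hij, hij]
  have hcomp : ∀ s, ρ (levi (tGL i j hij s)) (wComp ρ ψ i j ε v) =
      proj ρ ψ (rk1 ε (evec i j s)) (ρ (wEl F i) v) := by
    intro s
    rw [wComp, Module.End.mul_apply, levi_proj ρ hψ h2, actSym_rk1, tGL_coe, transvection_mulVec_evec hij, hfix]
  simp only [hcomp]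
  conv_lhs => rw [← sum_proj_apply ρ hψ h2 (ρ (wEl F i) v)]
  rw [← Finset.sum_subset (Finset.subset_univ ((Finset.univ : Finset F).image fun s => rk1 ε (evec i j s))),
    Finset.sum_image fun a _ b _ h => rk1_evec_injective hij hε h]
  intro W' _ hW'
  by_contra hne
  obtain ⟨s, rfl⟩ := exists_update_of_proj_ne hψ h2 hlow hε hv (Ne.symm hij) (by simp) hne
  refine hW' (Finset.mem_image.2 ⟨s, Finset.mem_univ _, ?_⟩)
  congr 1
  funext k
  by_cases hk : k = i
  · subst hk; simp [evec_at_left hij]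
  · rw [Function.update_of_ne hk]
    simp [evec, hk]

include hψ h2 hlow hε in
theorem wEl_levi_tGL_aux {v : V} (hv : v ∈ wt ρ ψ (rk1 ε (Pi.single j 1))) (s : F) :
    ρ (wEl F i) (ρ (levi (tGL i j hij s)) v) =
      ∑ t : F, ψ (2 * ε * s * t) • ρ (levi (tGL i j hij t)) (wComp ρ ψ i j ε v) := by
  rw [← Module.End.mul_apply, ← map_mul, wEl_mul_levi_tGL, map_mul, Module.End.mul_apply,
    wEl_apply_aux hψ h2 hlow hij hε hv, map_sum]
  refine Finset.sum_congr rfl fun t _ => ?_
  rw [levi_tGL_mem hij (wComp_mem i j ε v) t, pairing_eOff, rk1_apply, evec_at_left hij, evec_at_right hij]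
  congr 2
  ring

include hψ h2 hlow hij hε in
theorem wEl_wEl_aux {v : V} (hv : v ∈ wt ρ ψ (rk1 ε (Pi.single j 1))) :
    ρ (levi (dGL i (-1))) v = (Fintype.card F : ℂ) • wComp ρ ψ i j ε (wComp ρ ψ i j ε v) := by
  classical
  rw [← wEl_sq, map_mul, Module.End.mul_apply, wEl_apply_aux hψ h2 hlow hij hε hv, map_sum]
  simp only [wEl_levi_tGL_aux hψ h2 hlow hij hε (wComp_mem i j ε v)]
  rw [Finset.sum_comm]
  simp only [← Finset.sum_smul]
  have h : ∀ t : F, ∑ s : F, ψ (2 * ε * s * t) = if t = 0 then (Fintype.card F : ℂ) else 0 := by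
    intro t
    have hp : ψ ≠ 0 := by
      intro h0
      obtain ⟨x, hx⟩ := hψ 1 one_ne_zero
      exact hx (by simp [h0])
    split_ifs with ht
    · simp [ht]
    · rw [← AddChar.sum_eq_zero_iff_ne_zero.2 hp]
      refine Fintype.sum_equiv (Equiv.mulLeft₀ (2 * ε * t) (by simp [h2, hε, ht])) _ _ fun s => ?_
      rw [Equiv.mulLeft₀_apply]
      ring_nf
  simp only [h, ite_smul, zero_smul, Finset.sum_ite_eq', Finset.mem_univ, if_true]
  congr 1
  have : tGL i j hij (0 : F) = 1 := Units.ext (by rw [tGL_coe, Matrix.transvection_zero, Units.val_one])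
  rw [this, map_one, map_one, Module.End.one_apply]

include hψ h2 hlow hij hε in
theorem wComp_dGL_aux {v : V} (hv : v ∈ wt ρ ψ (rk1 ε (Pi.single j 1))) (a : Fˣ) :
    wComp ρ ψ i j ε (ρ (levi (dGL i (-a⁻¹))) v) =
      gsum ψ (ε * a) • wComp ρ ψ i j ε (wComp ρ ψ i j ε v) := by
  classical
  have h := congrArg (fun g => proj ρ ψ (rk1 ε (Pi.single j 1)) (ρ g v)) (wEl_braid i a)
  simp only [map_mul, Module.End.mul_apply] at h
  have hz : ρ (qS (eDiag i (-((a⁻¹ : Fˣ) : F)))) v = v := by
    rw [hv, pairing_eDiag, rk1_apply]; simp [Ne.symm hij, hij]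
  have hproj : ∀ u : V, proj ρ ψ (rk1 ε (Pi.single j 1)) (ρ (qS (eDiag i (-((a⁻¹ : Fˣ) : F)))) u) =
      proj ρ ψ (rk1 ε (Pi.single j 1)) u := by
    intro u
    conv_lhs => rw [← sum_proj_apply ρ hψ h2 u, map_sum, map_sum]
    rw [Finset.sum_eq_single (rk1 ε (Pi.single j 1))]
    · rw [proj_mem ρ ψ _ _ _, pairing_eDiag, rk1_apply, map_smul,
        proj_apply_of_mem ρ hψ h2 (proj_mem ρ ψ _ _), if_pos rfl]
      simp [Ne.symm hij, hij]
    · intro W _ hW
      rw [proj_mem ρ ψ _ _ _, map_smul, proj_apply_of_mem ρ hψ h2 (proj_mem ρ ψ _ _), if_neg (Ne.symm hW),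
        smul_zero]
    · simp
  rw [hproj, hz] at h
  rw [wComp, Module.End.mul_apply, ← h, wEl_apply_aux hψ h2 hlow hij hε hv, map_sum, map_sum, map_sum]
  have hterm : ∀ s : F, proj ρ ψ (rk1 ε (Pi.single j 1))
      (ρ (wEl F i) (ρ (qS (eDiag i (a : F))) (ρ (levi (tGL i j hij s)) (wComp ρ ψ i j ε v)))) =
      ψ (ε * a * s ^ 2) • wComp ρ ψ i j ε (wComp ρ ψ i j ε v) := by
    intro s
    rw [levi_tGL_mem hij (wComp_mem i j ε v) s, map_smul, map_smul,
      wEl_levi_tGL_aux hψ h2 hlow hij hε (wComp_mem i j ε v), map_sum, pairing_eDiag, rk1_apply,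
      evec_at_left hij]
    rw [Finset.sum_eq_single (0 : F)]
    · rw [map_smul, proj_apply_of_mem ρ hψ h2 (levi_tGL_mem hij (wComp_mem i j ε _) 0), if_pos (by rw [evec_zero])]
      have : tGL i j hij (0 : F) = 1 := Units.ext (by rw [tGL_coe, Matrix.transvection_zero, Units.val_one])
      rw [this, map_one, map_one, Module.End.one_apply, mul_zero, ψ.map_zero_eq_one, one_smul]
      congr 2
      ring
    · intro t _ ht
      rw [map_smul, proj_apply_of_mem ρ hψ h2 (levi_tGL_mem hij (wComp_mem i j ε _) t), if_neg, smul_zero]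
      rw [← evec_zero i j]
      exact fun he => ht (rk1_evec_injective hij hε he).symm
    · simp
  simp only [hterm, gsum, Finset.sum_smul]
  rfl

include hψ h2 hlow hij hε in
/-- The coordinate torus acts by scalars and `w_i` is the Fourier transform. -/
theorem dGL_apply_and_wComp_apply {v : V} (hv : v ∈ wt ρ ψ (rk1 ε (Pi.single j 1))) :
    wComp ρ ψ i j ε v = (gsum ψ (-ε))⁻¹ • v ∧
      ∀ c : Fˣ, ρ (levi (dGL i c)) v = gsum ψ (ε * ((-c⁻¹ : Fˣ) : F)) • wComp ρ ψ i j ε v := by
  have hinj : ∀ u : V, u ∈ wt ρ ψ (rk1 ε (Pi.single j 1)) → wComp ρ ψ i j ε u = 0 → u = 0 := by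
    intro u hu h0
    have h := wEl_wEl_aux hψ h2 hlow hij hε hu
    rw [h0, map_zero, smul_zero] at h
    have := congrArg (ρ (levi (dGL i (-1)))⁻¹) h
    rwa [← Module.End.mul_apply, ← map_mul, inv_mul_cancel, map_one, Module.End.one_apply, map_zero] at this
  have hD : ∀ c : Fˣ, ρ (levi (dGL i c)) v = gsum ψ (ε * ((-c⁻¹ : Fˣ) : F)) • wComp ρ ψ i j ε v := by
    intro c
    have h := wComp_dGL_aux hψ h2 hlow hij hε hv (-c⁻¹)
    rw [show -(-c⁻¹)⁻¹ = c by rw [inv_neg, inv_inv, neg_neg]] at h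
    refine sub_eq_zero.1 (hinj _ ?_ ?_)
    · exact Submodule.sub_mem _ (levi_dGL_mem hij hv c) (Submodule.smul_mem _ _ (wComp_mem i j ε v))
    · rw [map_sub, map_smul, h, sub_self]
  refine ⟨?_, hD⟩
  have h1 := hD 1
  have hd : dGL i (1 : Fˣ) = 1 := Units.ext (by simp [dGL_coe, dMat])
  rw [hd, map_one, map_one, Module.End.one_apply] at h1
  simp only [inv_one, Units.val_neg, Units.val_one, mul_neg, mul_one] at h1
  by_cases hv0 : v = 0
  · simp [hv0]
  have hG : gsum ψ (-ε) ≠ 0 := fun h => hv0 (by rw [h1, h, zero_smul])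
  conv_rhs => rw [h1, smul_smul, inv_mul_cancel₀ hG, one_smul]

end Fourier

/-- `A` fixing `e_j` stabilises every line of the weight space. -/
def ActsScalar (ρ : Representation ℂ (symplecticGroup (Fin n) F) V) (ψ : AddChar F ℂ) (ε : F) (j : Fin n)
    (A : GL (Fin n) F) : Prop :=
  ∀ v ∈ wt ρ ψ (rk1 ε (Pi.single j 1)), ∃ c : ℂ, ρ (levi A) v = c • v

theorem ActsScalar.one {ε : F} {j : Fin n} : ActsScalar ρ ψ ε j 1 := fun v _ => ⟨1, by simp⟩

theorem ActsScalar.mul {ε : F} {j : Fin n} {A B : GL (Fin n) F} (hA : ActsScalar ρ ψ ε j A)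
    (hB : ActsScalar ρ ψ ε j B) : ActsScalar ρ ψ ε j (A * B) := by
  intro v hv
  obtain ⟨b, hb⟩ := hB v hv
  obtain ⟨a, ha⟩ := hA v hv
  exact ⟨b * a, by rw [map_mul, map_mul, Module.End.mul_apply, hb, map_smul, ha, smul_smul]⟩

variable {ε : F} {j : Fin n}

include hψ h2 hlow in
theorem ActsScalar.dGL (hε : ε ≠ 0) {k : Fin n} (hk : k ≠ j) (c : Fˣ) : ActsScalar ρ ψ ε j (dGL k c) := by
  intro v hv
  obtain ⟨h1, hD⟩ := dGL_apply_and_wComp_apply hψ h2 hlow hk hε hv
  exact ⟨_, by rw [hD c, h1, smul_smul]⟩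

include hψ h2 hlow in
theorem ActsScalar.tGL {k l : Fin n} (hkl : k ≠ l) (hl : l ≠ j) (b : F) :
    ActsScalar ρ ψ ε j (tGL k l hkl b) := fun v hv =>
  ⟨1, by rw [one_smul, levi_tGL_apply hψ h2 hlow hkl hv (by simp [rk1_apply, hl])]⟩

/-- Diagonal units. -/
def dDiag : (Fin n → Fˣ) →* GL (Fin n) F :=
  (Units.map (Matrix.diagonalRingHom (Fin n) F).toMonoidHom).comp MulEquiv.piUnits.symm.toMonoidHom

theorem dDiag_coe (D : Fin n → Fˣ) :
    (dDiag D : Matrix (Fin n) (Fin n) F) = Matrix.diagonal fun i => (D i : F) := rfl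

theorem dDiag_mulSingle (k : Fin n) (c : Fˣ) : dDiag (Pi.mulSingle k c) = dGL k c := by
  apply Units.ext
  rw [dDiag_coe, dGL_coe]
  ext a b
  by_cases hab : a = b
  · subst hab
    by_cases hak : a = k
    · subst hak; simp [dMat, eMat]
    · simp [dMat, eMat, hak, Ne.symm hak]
  · simp [dMat, eMat, hab, Matrix.single_apply]
    rintro rfl rfl
    exact absurd rfl hab

include hψ h2 hlow in
theorem ActsScalar.dDiag_of_eq_one (hε : ε ≠ 0) (D : Fin n → Fˣ) (hD : D j = 1) :
    ActsScalar ρ ψ ε j (dDiag D) := by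
  rw [← Finset.univ_prod_mulSingle D]
  refine Finset.prod_induction _ (fun E => ActsScalar ρ ψ ε j (dDiag E)) ?_ ?_ ?_
  · intro a b ha hb; rw [map_mul]; exact ha.mul hb
  · rw [map_one]; exact ActsScalar.one
  · intro k _
    rw [dDiag_mulSingle]
    by_cases hk : k = j
    · subst hk
      rw [hD, show SpWeilChars.dGL k (1 : Fˣ) = 1 from Units.ext (by simp [dGL_coe, dMat])]
      exact ActsScalar.one
    · exact ActsScalar.dGL hψ h2 hlow hε hk _

/-- Extension of a matrix on the coordinates other than `j`. -/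
def embedOff (j : Fin n) (A : Matrix {k // k ≠ j} {k // k ≠ j} F) : Matrix (Fin n) (Fin n) F :=
  Matrix.of fun a b => if ha : a = j then (if b = j then 1 else 0)
    else if hb : b = j then 0 else A ⟨a, ha⟩ ⟨b, hb⟩

theorem embedOff_mul (A B : Matrix {k // k ≠ j} {k // k ≠ j} F) :
    embedOff j (A * B) = embedOff j A * embedOff j B := by
  ext a b
  by_cases ha : a = j
  · rw [Matrix.mul_apply, Finset.sum_eq_single j]
    · simp [embedOff, ha]
    · intro c _ hc; simp [embedOff, ha, hc]
    · simp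
  by_cases hb : b = j
  · subst hb
    rw [Matrix.mul_apply, Finset.sum_eq_zero]
    · simp [embedOff, ha]
    · intro c _; by_cases hc : c = b <;> simp [embedOff, ha, hc]
  rw [Matrix.mul_apply, ← Finset.sum_subset (Finset.subset_univ (Finset.univ.erase j))]
  · rw [Finset.sum_subtype (p := fun k => k ≠ j) (F := inferInstance) (Finset.univ.erase j) (by simp)]
    simp [embedOff, Matrix.mul_apply, ha, hb]
    refine Finset.sum_congr rfl fun c _ => ?_
    simp [c.2]
  · intro c _ hc
    have : c = j := by simpa using hc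
    simp [embedOff, ha, this]

theorem embedOff_one : embedOff (F := F) j 1 = 1 := by
  ext a b
  by_cases ha : a = j <;> by_cases hb : b = j <;> simp [embedOff, ha, hb, Matrix.one_apply, Ne.symm, eq_comm]

/-- The embedding on units. -/
def embedOffGL (j : Fin n) : GL {k // k ≠ j} F →* GL (Fin n) F :=
  Units.map { toFun := embedOff j, map_one' := embedOff_one, map_mul' := embedOff_mul }

include hψ h2 hlow in
theorem ActsScalar.embedOffGL (hε : ε ≠ 0) (A : GL {k // k ≠ j} F) :
    ActsScalar ρ ψ ε j (embedOffGL j A) := by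
  have key : ∀ M : Matrix {k // k ≠ j} {k // k ≠ j} F, M.det ≠ 0 →
      ∀ B : GL (Fin n) F, (B : Matrix (Fin n) (Fin n) F) = embedOff j M → ActsScalar ρ ψ ε j B := by
    intro M hM
    refine Matrix.diagonal_transvection_induction_of_det_ne_zero (fun M => ∀ B : GL (Fin n) F,
      (B : Matrix (Fin n) (Fin n) F) = embedOff j M → ActsScalar ρ ψ ε j B) M hM ?_ ?_ ?_
    · intro D hDet
      intro B hB
      have hD : ∀ k, D k ≠ 0 := fun k => by
        rw [Matrix.det_diagonal] at hDet
        exact Finset.prod_ne_zero_iff.1 hDet k (Finset.mem_univ _)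
      let E : Fin n → Fˣ := fun a => if ha : a = j then 1 else Units.mk0 (D ⟨a, ha⟩) (hD _)
      have : B = dDiag E := by
        apply Units.ext
        rw [hB, dDiag_coe]
        ext a b
        by_cases hab : a = b
        · subst hab
          by_cases ha : a = j <;> simp [embedOff, E, ha]
        · by_cases ha : a = j
          · subst ha; simp [embedOff, hab, Ne.symm hab]
          · by_cases hb : b = j <;> simp [embedOff, ha, hb, hab]
      rw [this]
      exact ActsScalar.dDiag_of_eq_one hψ h2 hlow hε E (by simp [E])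
    · intro t
      intro B hB
      have : B = SpWeilChars.tGL (t.i : Fin n) (t.j : Fin n) (fun h => t.hij (Subtype.ext h)) t.c := by
        apply Units.ext
        rw [hB, tGL_coe]
        ext a b
        by_cases ha : a = j <;> by_cases hb : b = j <;>
          simp [embedOff, ha, hb, Matrix.TransvectionStruct.toMatrix, Matrix.transvection, Matrix.one_apply,
            Matrix.single_apply, Subtype.ext_iff, t.i.2, t.j.2, Ne.symm, eq_comm]
      rw [this]
      exact ActsScalar.tGL hψ h2 hlow _ t.j.2 _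
    · intro M N hM' hN' ihM ihN
      intro B hB
      let a := Matrix.GeneralLinearGroup.mkOfDetNeZero M hM'
      let b := Matrix.GeneralLinearGroup.mkOfDetNeZero N hN'
      have hBab : B = SpWeilChars.embedOffGL j (a * b) := Units.ext hB
      rw [hBab, map_mul]
      exact (ihM _ rfl).mul (ihN _ rfl)
  exact key _ ((Matrix.isUnit_iff_isUnit_det _).1 A.isUnit).ne_zero _ rfl

/-- The unipotent matrices `1 + e_j r`. -/
def rowGL (j : Fin n) (r : Fin n → F) : GL (Fin n) F where
  val := 1 + Matrix.vecMulVec (Pi.single j 1) (Function.update r j 0)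
  inv := 1 + Matrix.vecMulVec (Pi.single j 1) (Function.update (-r) j 0)
  val_inv := by
    simp only [add_mul, mul_add, Matrix.one_mul, Matrix.mul_one, Matrix.vecMulVec_mul_vecMulVec, dotProduct_single,
      Function.update_self, zero_mul, zero_smul, Matrix.vecMulVec_zero, add_zero]
    rw [add_assoc, ← Matrix.vecMulVec_add]
    simp [← Function.update_add]
  inv_val := by
    simp only [add_mul, mul_add, Matrix.one_mul, Matrix.mul_one, Matrix.vecMulVec_mul_vecMulVec, dotProduct_single,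
      Function.update_self, zero_mul, zero_smul, Matrix.vecMulVec_zero, add_zero]
    rw [add_assoc, ← Matrix.vecMulVec_add]
    simp [← Function.update_add]

theorem rowGL_coe (r : Fin n → F) :
    (rowGL j r : Matrix (Fin n) (Fin n) F) =
      1 + Matrix.vecMulVec (Pi.single j 1) (Function.update r j 0) := rfl

theorem rowGL_add (r r' : Fin n → F) : rowGL j (r + r') = rowGL j r * rowGL j r' := by
  apply Units.ext
  simp only [Units.val_mul, rowGL_coe, add_mul, mul_add, Matrix.one_mul, Matrix.mul_one,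
    Matrix.vecMulVec_mul_vecMulVec, dotProduct_single, Function.update_self, zero_mul, zero_smul,
    Matrix.vecMulVec_zero, add_zero]
  rw [add_assoc, ← Matrix.vecMulVec_add, ← Function.update_add, add_zero, add_comm r r']

include hψ h2 hlow in
theorem ActsScalar.rowGL (r : Fin n → F) : ActsScalar ρ ψ ε j (rowGL j r) := by
  rw [← Finset.univ_sum_single r]
  refine Finset.sum_induction _ (fun r => ActsScalar ρ ψ ε j (SpWeilChars.rowGL j r)) ?_ ?_ ?_
  · intro a b ha hb; rw [rowGL_add]; exact ha.mul hb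
  · rw [show SpWeilChars.rowGL j (0 : Fin n → F) = 1 from Units.ext (by simp [rowGL_coe])]
    exact ActsScalar.one
  · intro k _
    by_cases hk : k = j
    · subst hk
      rw [show SpWeilChars.rowGL k (Pi.single k (r k)) = 1 from Units.ext (by simp [rowGL_coe, Pi.single])]
      exact ActsScalar.one
    · have : SpWeilChars.rowGL j (Pi.single k (r k)) = SpWeilChars.tGL j k (Ne.symm hk) (r k) := by
        apply Units.ext
        rw [rowGL_coe, tGL_coe]
        have : Function.update (Pi.single k (r k)) j 0 = (Pi.single k (r k) : Fin n → F) := by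
          funext a; by_cases ha : a = j <;> simp [ha, Ne.symm hk]
        rw [this, Matrix.transvection]
        congr 1
        ext a b
        simp [Matrix.vecMulVec_apply, Matrix.single_apply, Pi.single_apply, eq_comm]
        split_ifs <;> simp_all
      rw [this]
      exact ActsScalar.tGL hψ h2 hlow _ hk _

include hψ h2 hlow in
/-- The stabiliser of `e_j` acts by scalars. -/
theorem ActsScalar.of_mulVec (hε : ε ≠ 0) (A : GL (Fin n) F)
    (hA : (A : Matrix (Fin n) (Fin n) F) *ᵥ Pi.single j 1 = Pi.single j 1) : ActsScalar ρ ψ ε j A := by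
  have hcol : ∀ B : GL (Fin n) F, (B : Matrix (Fin n) (Fin n) F) *ᵥ Pi.single j 1 = Pi.single j 1 →
      ∀ a, (B : Matrix (Fin n) (Fin n) F) a j = (Pi.single j 1 : Fin n → F) a := fun B hB a => by
    rw [← congrFun hB a]; simp
  have hAi : ((A⁻¹ : GL (Fin n) F) : Matrix (Fin n) (Fin n) F) *ᵥ Pi.single j 1 = Pi.single j 1 := by
    conv_lhs => rw [← hA]
    rw [Matrix.mulVec_mulVec, ← Units.val_mul, inv_mul_cancel, Units.val_one, Matrix.one_mulVec]
  let res : GL (Fin n) F → Matrix {k // k ≠ j} {k // k ≠ j} F := fun B =>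
    (B : Matrix (Fin n) (Fin n) F).submatrix (↑) (↑)
  have hres : ∀ B C : GL (Fin n) F, (C : Matrix (Fin n) (Fin n) F) *ᵥ Pi.single j 1 = Pi.single j 1 →
      (B : Matrix (Fin n) (Fin n) F) *ᵥ Pi.single j 1 = Pi.single j 1 → res (B * C) = res B * res C := by
    intro B C _ hB
    ext a b
    simp only [res, Matrix.submatrix_apply, Units.val_mul, Matrix.mul_apply]
    rw [← Finset.sum_subset (Finset.subset_univ (Finset.univ.erase j)), Finset.sum_subtype (p := fun k => k ≠ j) _ (by simp)]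
    intro c _ hc
    have : c = j := by simpa using hc
    subst this
    rw [hcol B hB a.1, Pi.single_eq_of_ne a.2, zero_mul]
  have h1 : res A * res A⁻¹ = 1 := by
    rw [← hres A A⁻¹ hAi hA, mul_inv_cancel]
    ext a b; simp [res, Matrix.one_apply, Subtype.ext_iff]
  let A' : GL {k // k ≠ j} F := ⟨res A, res A⁻¹, h1, mul_eq_one_comm.1 h1⟩
  have hfac : A = SpWeilChars.embedOffGL j A' * SpWeilChars.rowGL j ((A : Matrix (Fin n) (Fin n) F) j) := by
    apply Units.ext
    have he : ((SpWeilChars.embedOffGL j A' : GL (Fin n) F) : Matrix (Fin n) (Fin n) F) = embedOff j (res A) := rfl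
    rw [Units.val_mul, he, rowGL_coe, mul_add, Matrix.mul_one, Matrix.mul_vecMulVec]
    have hecol : embedOff j (res A) *ᵥ Pi.single j (1 : F) = Pi.single j 1 := by
      funext a
      by_cases ha : a = j <;> simp [embedOff, ha]
    rw [hecol]
    ext a b
    by_cases ha : a = j
    · subst ha
      by_cases hb : b = a
      · subst hb; simp [embedOff, Matrix.vecMulVec_apply, hcol A hA]
      · simp [embedOff, Matrix.vecMulVec_apply, hb]
    · by_cases hb : b = j
      · subst hb; simp [embedOff, Matrix.vecMulVec_apply, ha, hcol A hA]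
      · simp [embedOff, res, Matrix.vecMulVec_apply, ha, hb]
  rw [hfac]
  exact (ActsScalar.embedOffGL hψ h2 hlow hε A').mul (ActsScalar.rowGL hψ h2 hlow _)

include hψ h2 hlow in
/-- The stabiliser of the weight acts by scalars, given that the centre does. -/
theorem ActsScalar.of_mulVec_neg (hε : ε ≠ 0) (σ : ℂ) (hσ : ∀ v, ρ (levi (-1)) v = σ • v) (A : GL (Fin n) F)
    (hA : (A : Matrix (Fin n) (Fin n) F) *ᵥ Pi.single j 1 = -Pi.single j 1) : ActsScalar ρ ψ ε j A := by
  have h : A = (-1) * (-A) := by simp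
  rw [h]
  refine ActsScalar.mul (fun v _ => ⟨σ, hσ v⟩) (ActsScalar.of_mulVec hψ h2 hlow hε _ ?_)
  rw [Units.val_neg, Matrix.neg_mulVec, hA, neg_neg]

end CfsgLib.SpWeilChars
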