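import Cfsg.Agent.SpWeilChars.Basic
import Mathlib.RepresentationTheory.Basic

/-!
Weights of a representation of `Sp_2n(q)` on its Siegel radical.
-/

set_option autoImplicit false

namespace CfsgLib.SpWeilChars

open Matrix

variable {F : Type*} [Field F] {n : ℕ}

/-- The pairing of symmetric matrices. -/
def pairing (W : symSub n F) : symSub n F →+ F where
  toFun S := ((W : Matrix (Fin n) (Fin n) F) * (S : Matrix (Fin n) (Fin n) F)).trace
  map_zero' := by simp
  map_add' S T := by simp [mul_add]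

theorem pairing_apply (W S : symSub n F) :
    pairing W S = ((W : Matrix (Fin n) (Fin n) F) * (S : Matrix (Fin n) (Fin n) F)).trace := rfl

theorem pairing_comm (W S : symSub n F) : pairing W S = pairing S W := by
  rw [pairing_apply, pairing_apply, Matrix.trace_mul_comm]

theorem pairing_eDiag (W : symSub n F) (i : Fin n) (c : F) :
    pairing W (eDiag i c) = (W : Matrix (Fin n) (Fin n) F) i i * c := by
  simp [pairing_apply, eDiag, Matrix.trace_mul_single]

theorem pairing_eOff (W : symSub n F) (i j : Fin n) (b : F) :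
    pairing W (eOff i j b) = 2 * (W : Matrix (Fin n) (Fin n) F) i j * b := by
  have h : (W : Matrix (Fin n) (Fin n) F) j i = (W : Matrix (Fin n) (Fin n) F) i j :=
    congrFun (congrFun (symSub_transpose W) i) j
  simp [pairing_apply, eOff, mul_add, Matrix.trace_mul_single, h]
  ring

/-- Congruence of weights. -/
def actSym (A : Matrix (Fin n) (Fin n) F) (W : symSub n F) : symSub n F :=
  ⟨A * (W : Matrix (Fin n) (Fin n) F) * Aᵀ, by
    rw [mem_symSub, transpose_mul, transpose_mul, transpose_transpose, symSub_transpose, Matrix.mul_assoc]⟩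

theorem pairing_congrSym (A : Matrix (Fin n) (Fin n) F) (W S : symSub n F) :
    pairing W (congrSym A S) = pairing (actSym A W) S := by
  simp only [pairing_apply, congrSym, actSym, ← Matrix.mul_assoc]
  rw [Matrix.trace_mul_comm]
  simp only [Matrix.mul_assoc]

theorem actSym_mul (A B : Matrix (Fin n) (Fin n) F) (W : symSub n F) :
    actSym (A * B) W = actSym A (actSym B W) := by
  apply Subtype.ext
  simp [actSym, transpose_mul, Matrix.mul_assoc]

theorem actSym_one (W : symSub n F) : actSym (1 : Matrix (Fin n) (Fin n) F) W = W := by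
  apply Subtype.ext
  simp [actSym]

/-- The weight of the rank one form `ε x xᵀ`. -/
def rk1 (ε : F) (x : Fin n → F) : symSub n F :=
  ⟨ε • Matrix.vecMulVec x x, by rw [mem_symSub, transpose_smul, transpose_vecMulVec]⟩

theorem rk1_apply (ε : F) (x : Fin n → F) (k l : Fin n) :
    (rk1 ε x : Matrix (Fin n) (Fin n) F) k l = ε * (x k * x l) := by
  simp [rk1, Matrix.vecMulVec_apply]

theorem actSym_rk1 (A : Matrix (Fin n) (Fin n) F) (ε : F) (x : Fin n → F) :
    actSym A (rk1 ε x) = rk1 ε (A *ᵥ x) := by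
  apply Subtype.ext
  simp [actSym, rk1, Matrix.mul_vecMulVec, Matrix.vecMulVec_mul, Matrix.vecMul_transpose]

theorem rk1_smul (ε c : F) (x : Fin n → F) : rk1 ε (c • x) = rk1 (ε * c ^ 2) x := by
  apply Subtype.ext
  ext k l
  rw [rk1_apply, rk1_apply, Pi.smul_apply, Pi.smul_apply, smul_eq_mul, smul_eq_mul]
  ring

theorem rk1_zero (ε : F) : rk1 ε (0 : Fin n → F) = 0 := by
  apply Subtype.ext
  simp [rk1]

theorem symSub_ext {W W' : symSub n F}
    (h : ∀ k l, (W : Matrix (Fin n) (Fin n) F) k l = (W' : Matrix (Fin n) (Fin n) F) k l) : W = W' :=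
  Subtype.ext (Matrix.ext h)

theorem eq_of_pairing_eq (h2 : (2 : F) ≠ 0) {W W' : symSub n F} (h : ∀ S, pairing W S = pairing W' S) :
    W = W' := by
  refine symSub_ext fun k l => ?_
  by_cases hkl : k = l
  · subst hkl
    have := h (eDiag k 1)
    rwa [pairing_eDiag, pairing_eDiag, mul_one, mul_one] at this
  · have := h (eOff k l 1)
    rw [pairing_eOff, pairing_eOff, mul_one, mul_one] at this
    exact mul_left_cancel₀ h2 this

/-- Scalar multiples. -/
def smulSym (c : F) (S : symSub n F) : symSub n F :=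
  ⟨c • (S : Matrix (Fin n) (Fin n) F), by rw [mem_symSub, transpose_smul, symSub_transpose]⟩

theorem pairing_smulSym (W S : symSub n F) (c : F) : pairing W (smulSym c S) = c * pairing W S := by
  simp [pairing_apply, smulSym]

section Rep

variable {V : Type*} [AddCommGroup V] [Module ℂ V]
variable (ρ : Representation ℂ (symplecticGroup (Fin n) F) V) (ψ : AddChar F ℂ)

/-- A weight space. -/
def wt (W : symSub n F) : Submodule ℂ V where
  carrier := {v | ∀ S, ρ (qS S) v = ψ (pairing W S) • v}
  zero_mem' S := by simp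
  add_mem' {a b} ha hb S := by simp [ha S, hb S]
  smul_mem' c {a} ha S := by rw [map_smul, ha S, smul_comm]

theorem mem_wt {W : symSub n F} {v : V} : v ∈ wt ρ ψ W ↔ ∀ S, ρ (qS S) v = ψ (pairing W S) • v := Iff.rfl

theorem levi_mem_wt {A : GL (Fin n) F} {W : symSub n F} {v : V} (hv : v ∈ wt ρ ψ W) :
    ρ (levi A) v ∈ wt ρ ψ (actSym (A : Matrix (Fin n) (Fin n) F) W) := by
  intro S
  rw [← Module.End.mul_apply, ← map_mul, qS_mul_levi, map_mul, Module.End.mul_apply, hv, map_smul,
    pairing_congrSym]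

/-- Every weight occurring has rank at most one. -/
def LowRank : Prop := ∀ W v, v ≠ (0 : V) → v ∈ wt ρ ψ W → ∃ ε x, W = rk1 ε x

variable [Fintype F] [DecidableEq F]

noncomputable instance : Fintype (symSub n F) := Fintype.ofFinite _

/-- The projection to a weight space. -/
noncomputable def proj (W : symSub n F) : Module.End ℂ V :=
  (Fintype.card (symSub n F) : ℂ)⁻¹ • ∑ S : symSub n F, ψ (-pairing W S) • ρ (qS S)

theorem proj_apply (W : symSub n F) (v : V) :
    proj ρ ψ W v = (Fintype.card (symSub n F) : ℂ)⁻¹ • ∑ S : symSub n F, ψ (-pairing W S) • ρ (qS S) v := by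
  simp [proj, LinearMap.sum_apply]

theorem proj_mem (W : symSub n F) (v : V) : proj ρ ψ W v ∈ wt ρ ψ W := by
  intro S
  simp only [proj_apply, map_smul, map_sum]
  rw [smul_comm (ψ (pairing W S))]
  congr 1
  rw [Finset.smul_sum]
  refine Fintype.sum_equiv (Equiv.addLeft S) _ _ fun T => ?_
  rw [← Module.End.mul_apply, ← map_mul, ← qS_add, smul_smul, ← AddChar.map_add_eq_mul, Equiv.coe_addLeft,
    (pairing W).map_add]
  congr 2
  ring

variable {ψ}
variable (hψ : ∀ a : F, a ≠ 0 → ∃ x : F, ψ (a * x) ≠ 1) (h2 : (2 : F) ≠ 0)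

include hψ in
theorem eq_of_psi_eq {a b : F} (h : ∀ c : F, ψ (c * a) = ψ (c * b)) : a = b := by
  by_contra hne
  obtain ⟨x, hx⟩ := hψ (a - b) (sub_ne_zero.2 hne)
  refine hx ?_
  rw [sub_mul, sub_eq_add_neg, ψ.map_add_eq_mul, mul_comm a x, h, ← ψ.map_add_eq_mul, mul_comm x b,
    add_neg_cancel, ψ.map_zero_eq_one]

include hψ h2 in
theorem sum_psi_pairing (U : symSub n F) :
    ∑ S : symSub n F, ψ (pairing U S) = if U = 0 then (Fintype.card (symSub n F) : ℂ) else 0 := by
  split_ifs with hU
  · subst hU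
    simp [pairing_apply]
  · let φ : AddChar (symSub n F) ℂ := ψ.compAddMonoidHom (pairing U)
    have hφ : φ ≠ 0 := by
      intro h0
      refine hU (eq_of_pairing_eq h2 fun S => eq_of_psi_eq hψ fun c => ?_)
      rw [← pairing_smulSym, show pairing (0 : symSub n F) S = 0 by simp [pairing_apply], mul_zero,
        ψ.map_zero_eq_one]
      exact DFunLike.congr_fun h0 (smulSym c S)
    exact AddChar.sum_eq_zero_iff_ne_zero.2 hφ

include hψ h2 in
theorem sum_proj_apply (v : V) : ∑ W : symSub n F, proj ρ ψ W v = v := by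
  simp only [proj_apply, ← Finset.smul_sum]
  rw [Finset.sum_comm]
  simp only [← Finset.sum_smul]
  have h : ∀ S : symSub n F, ∑ W : symSub n F, ψ (-pairing W S) =
      if S = 0 then (Fintype.card (symSub n F) : ℂ) else 0 := by
    intro S
    rw [← sum_psi_pairing hψ h2 S]
    refine Fintype.sum_equiv (Equiv.neg _) _ _ fun W => ?_
    rw [Equiv.neg_apply, (pairing S).map_neg, pairing_comm W S]
  simp only [h, ite_smul, zero_smul, Finset.sum_ite_eq', Finset.mem_univ, if_true, qS_zero, map_one,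
    Module.End.one_apply]
  rw [inv_smul_smul₀ (Nat.cast_ne_zero.2 Fintype.card_ne_zero)]

include hψ h2 in
theorem proj_apply_of_mem {W W' : symSub n F} {v : V} (hv : v ∈ wt ρ ψ W') :
    proj ρ ψ W v = if W = W' then v else 0 := by
  rw [proj_apply]
  simp only [(mem_wt ρ ψ).1 hv, smul_smul, ← Finset.sum_smul]
  have h : ∀ S : symSub n F, ψ (-pairing W S) * ψ (pairing W' S) = ψ (pairing (W' - W) S) := fun S => by
    rw [← ψ.map_add_eq_mul]
    congr 1
    simp [pairing_apply, sub_mul]
    ring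
  simp only [h, sum_psi_pairing hψ h2, sub_eq_zero, eq_comm (a := W')]
  split_ifs
  · rw [inv_mul_cancel₀ (Nat.cast_ne_zero.2 Fintype.card_ne_zero), one_smul]
  · simp

include hψ h2 in
theorem eq_of_mem_wt {W W' : symSub n F} {v : V} (hv0 : v ≠ 0) (hv : v ∈ wt ρ ψ W) (hv' : v ∈ wt ρ ψ W') :
    W = W' := by
  by_contra hne
  have h1 := proj_apply_of_mem ρ hψ h2 (W := W) hv'
  rw [proj_apply_of_mem ρ hψ h2 (W := W) hv, if_pos rfl, if_neg hne] at h1
  exact hv0 h1

include hψ h2 in
theorem levi_proj (A : GL (Fin n) F) (W : symSub n F) (v : V) :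
    ρ (levi A) (proj ρ ψ W v) = proj ρ ψ (actSym (A : Matrix (Fin n) (Fin n) F) W) (ρ (levi A) v) := by
  conv_rhs => rw [← sum_proj_apply ρ hψ h2 v, map_sum, map_sum]
  rw [Finset.sum_eq_single W]
  · rw [proj_apply_of_mem ρ hψ h2 (levi_mem_wt ρ ψ (proj_mem ρ ψ W v)), if_pos rfl]
  · intro W' _ hne
    rw [proj_apply_of_mem ρ hψ h2 (levi_mem_wt ρ ψ (proj_mem ρ ψ W' v)), if_neg]
    intro h
    refine hne ?_
    have := congrArg (actSym ((A⁻¹ : GL (Fin n) F) : Matrix (Fin n) (Fin n) F)) h
    rw [← actSym_mul, ← actSym_mul, ← Units.val_mul, inv_mul_cancel, Units.val_one, actSym_one,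
      actSym_one] at this
    exact this.symm
  · simp

include hψ in
theorem pairing_eq_of_comm {W W' : symSub n F} {v : V} (hv : v ∈ wt ρ ψ W)
    {g : symplecticGroup (Fin n) F} (S : symSub n F) (hg : ∀ c, g * qS (smulSym c S) = qS (smulSym c S) * g)
    (hne : proj ρ ψ W' (ρ g v) ≠ 0) : pairing W' S = pairing W S := by
  refine eq_of_psi_eq hψ fun c => ?_
  rw [← pairing_smulSym, ← pairing_smulSym]
  set T := smulSym c S
  have h1 : ρ (qS T) (ρ g v) = ψ (pairing W T) • ρ g v := by
    rw [← Module.End.mul_apply, ← map_mul, ← hg, map_mul, Module.End.mul_apply, hv, map_smul]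
  have h3 : ρ (qS T) (proj ρ ψ W' (ρ g v)) = ψ (pairing W T) • proj ρ ψ W' (ρ g v) := by
    have hc : ρ (qS T) (proj ρ ψ W' (ρ g v)) = proj ρ ψ W' (ρ (qS T) (ρ g v)) := by
      simp only [proj_apply, map_smul, map_sum]
      simp only [← Module.End.mul_apply, ← map_mul]
      simp only [← mul_assoc, qS_comm T]
    rw [hc, h1, map_smul]
  rw [proj_mem ρ ψ W' (ρ g v) T] at h3
  exact smul_left_injective ℂ hne h3

include hψ h2 in
/-- Elements of the coordinate copy of `SL_2` preserve the other entries of a weight. -/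
theorem entry_eq_of_comm {W W' : symSub n F} {v : V} (hv : v ∈ wt ρ ψ W)
    {g : symplecticGroup (Fin n) F} {i : Fin n}
    (hg : ∀ S : symSub n F, eMat F i * (S : Matrix (Fin n) (Fin n) F) = 0 → g * qS S = qS S * g)
    (hne : proj ρ ψ W' (ρ g v) ≠ 0) {k l : Fin n} (hk : k ≠ i) (hl : l ≠ i) :
    (W' : Matrix (Fin n) (Fin n) F) k l = (W : Matrix (Fin n) (Fin n) F) k l := by
  by_cases hkl : k = l
  · subst hkl
    have := pairing_eq_of_comm ρ hψ hv (eDiag k 1) (fun c => hg _ (by
      simp [smulSym, eDiag, eMat, Ne.symm hk])) hne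
    rwa [pairing_eDiag, pairing_eDiag, mul_one, mul_one] at this
  · have := pairing_eq_of_comm ρ hψ hv (eOff k l 1) (fun c => hg _ (by
      simp [smulSym, eOff, eMat, mul_add, Ne.symm hk, Ne.symm hl])) hne
    rw [pairing_eOff, pairing_eOff, mul_one, mul_one] at this
    exact mul_left_cancel₀ h2 this

end Rep

theorem wEl_inv_comm_qS {i : Fin n} (S : symSub n F) (h : eMat F i * (S : Matrix (Fin n) (Fin n) F) = 0) :
    (wEl F i)⁻¹ * qS S = qS S * (wEl F i)⁻¹ :=
  (Commute.inv_left (wEl_comm_qS h : Commute (wEl F i) (qS S))).eq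

end CfsgLib.SpWeilChars
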